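import Mathlib
import Cfsg.Agent.Helper16.NGDefs

/-!
# S4404, piece P6B (helper79), for helper16's CALL S4404

Two elements `c, d` of a `7`-group `P` with `[c, M]`, `[d, M]` of order `8` both containing `V`
(order `4`), `c ∉ C(M)`, `c ^ 7 ∈ C(M)`: then `d ∈ ⟨c⟩ C(M)`.
`ng_p6b_of` takes the piece LTS as a hypothesis; the verbatim statement is in `NGP6Bv`.
-/

set_option autoImplicit false

namespace Cfsg.Agent.Helper79.NGP6B
open Cfsg.Agent.Helper16.NG

variable {S : Type*} [Group S]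

theorem U_le (M : Subgroup S) [hMn : M.Normal] (c : S) : U M c ≤ M := by
  unfold U
  rw [Subgroup.closure_le]
  rintro u ⟨m, hm, rfl⟩
  exact M.mul_mem (hMn.conj_mem m hm c) (M.inv_mem hm)

theorem comm_mem_U (M : Subgroup S) (c m : S) (hm : m ∈ M) : c * m * c⁻¹ * m⁻¹ ∈ U M c :=
  Subgroup.subset_closure ⟨m, hm, rfl⟩

/-- card bound for the join of two subgroups of order 8 of an abelian subgroup sharing a subgroup
of order 4 -/
theorem card_sup_le [Finite S] (M A B V : Subgroup S) (hcomm : ∀ a ∈ M, ∀ b ∈ M, a * b = b * a)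
    (hA : A ≤ M) (hB : B ≤ M) (hVA : V ≤ A) (hVB : V ≤ B) (hV : Nat.card V = 4)
    (hAc : Nat.card A = 8) (hBc : Nat.card B = 8) : Nat.card (A ⊔ B : Subgroup S) ≤ 16 := by
  let _ : CommGroup M := { (inferInstance : Group M) with
    mul_comm := fun a b => Subtype.ext (hcomm a a.2 b b.2) }
  have hAB : (A ⊔ B).subgroupOf M = A.subgroupOf M ⊔ B.subgroupOf M := Subgroup.subgroupOf_sup hA hB
  have hcA : Nat.card (A.subgroupOf M) = 8 := by
    rw [← hAc]; exact Nat.card_congr (Subgroup.subgroupOfEquivOfLe hA).toEquiv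
  have hcB : Nat.card (B.subgroupOf M) = 8 := by
    rw [← hBc]; exact Nat.card_congr (Subgroup.subgroupOfEquivOfLe hB).toEquiv
  have hcW : Nat.card (A.subgroupOf M ⊔ B.subgroupOf M : Subgroup M) = Nat.card (A ⊔ B : Subgroup S) := by
    rw [← hAB]; exact Nat.card_congr (Subgroup.subgroupOfEquivOfLe (sup_le hA hB)).toEquiv
  have hcI : 4 ≤ Nat.card (A.subgroupOf M ⊓ B.subgroupOf M : Subgroup M) := by
    have hle : V.subgroupOf M ≤ A.subgroupOf M ⊓ B.subgroupOf M := by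
      intro v hv
      exact ⟨hVA hv, hVB hv⟩
    have h4 : Nat.card (V.subgroupOf M) = 4 := by
      rw [← hV]; exact Nat.card_congr (Subgroup.subgroupOfEquivOfLe (hVA.trans hA)).toEquiv
    rw [← h4]; exact Subgroup.card_le_of_le hle
  have h1 : Nat.card (B.subgroupOf M) * (B.subgroupOf M).relIndex (A.subgroupOf M ⊔ B.subgroupOf M)
      = Nat.card (A.subgroupOf M ⊔ B.subgroupOf M : Subgroup M) := by
    have := Subgroup.relIndex_mul_relIndex (⊥ : Subgroup M) (B.subgroupOf M)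
      (A.subgroupOf M ⊔ B.subgroupOf M) bot_le le_sup_right
    rwa [Subgroup.relIndex_bot_left, Subgroup.relIndex_bot_left] at this
  have h2 : (B.subgroupOf M).relIndex (A.subgroupOf M ⊔ B.subgroupOf M)
      = (B.subgroupOf M).relIndex (A.subgroupOf M) := Subgroup.relIndex_sup_right _ _
  have h3 : (A.subgroupOf M ⊓ B.subgroupOf M).relIndex (A.subgroupOf M)
      = (B.subgroupOf M).relIndex (A.subgroupOf M) := Subgroup.inf_relIndex_left _ _
  have h4 : Nat.card (A.subgroupOf M ⊓ B.subgroupOf M : Subgroup M)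
      * (A.subgroupOf M ⊓ B.subgroupOf M).relIndex (A.subgroupOf M) = Nat.card (A.subgroupOf M) := by
    have := Subgroup.relIndex_mul_relIndex (⊥ : Subgroup M) (A.subgroupOf M ⊓ B.subgroupOf M)
      (A.subgroupOf M) bot_le inf_le_left
    rwa [Subgroup.relIndex_bot_left, Subgroup.relIndex_bot_left] at this
  rw [← hcW, ← h1, h2, ← h3, hcB]
  rw [hcA] at h4
  have h5 := Nat.mul_le_mul_right ((A.subgroupOf M ⊓ B.subgroupOf M).relIndex (A.subgroupOf M)) hcI
  rw [h4] at h5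
  omega

/-- P6B, with LTS as a hypothesis -/
theorem ng_p6b_of [Finite S]
    (hLTS : ∀ (M : Subgroup S) [M.Normal], (∀ a ∈ M, ∀ b ∈ M, a * b = b * a) → (∀ a ∈ M, a ^ 2 = 1) →
      ∀ (W : Subgroup S), W ≤ M → Nat.card W ≤ 16 → ∀ (p : ℕ), p.Prime → 5 ≤ p →
      ∀ (T : Subgroup S), IsPGroup p ↥T → (∀ t ∈ T, ∀ w ∈ W, t * w * t⁻¹ ∈ W) →
      (∀ t ∈ T, ∀ m ∈ M, t * m * t⁻¹ * m⁻¹ ∈ W) →
      (T ⊓ Subgroup.centralizer (M : Set S)).relIndex T ≤ 7)
    {M V : Subgroup S} {x : S} (h : Cfg M V x) (P : Subgroup S) (hP : IsPGroup 7 ↥P)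
    (c d : S) (hc : c ∈ P) (hd : d ∈ P) (hc1 : c ∉ Subgroup.centralizer (M : Set S))
    (hc7 : c ^ 7 ∈ Subgroup.centralizer (M : Set S)) (hcU : Nat.card (U M c) = 8) (hcV : V ≤ U M c)
    (hdU : Nat.card (U M d) = 8) (hdV : V ≤ U M d) :
    ∃ k : ℕ, d * (c ^ k)⁻¹ ∈ Subgroup.centralizer (M : Set S) := by
  classical
  have hMn : M.Normal := h.normal
  have : Fact (Nat.Prime 7) := ⟨by norm_num⟩
  set W : Subgroup S := U M c ⊔ U M d with hWdef
  have hWM : W ≤ M := sup_le (U_le M c) (U_le M d)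
  have hW16 : Nat.card W ≤ 16 :=
    card_sup_le M (U M c) (U M d) V h.comm (U_le M c) (U_le M d) hcV hdV h.card hcU hdU
  set T : Subgroup S := Subgroup.closure {c, d} with hTdef
  have hTP : T ≤ P := by
    rw [hTdef, Subgroup.closure_le]
    rintro y (rfl | rfl)
    · exact hc
    · exact hd
  have hTp : IsPGroup 7 ↥T := hP.to_le hTP
  have hgen : ∀ e : S, (∀ m ∈ M, e * m * e⁻¹ * m⁻¹ ∈ W) →
      e ∈ Subgroup.normalizer (W : Set S) := by
    intro e he
    rw [Subgroup.mem_normalizer_iff]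
    intro w
    constructor
    · intro hw
      have h1 := W.mul_mem (he w (hWM hw)) hw
      have h2 : e * w * e⁻¹ * w⁻¹ * w = e * w * e⁻¹ := by group
      rwa [h2] at h1
    · intro hw
      have hwM : w ∈ M := by
        have h1 := hMn.conj_mem _ (hWM hw) e⁻¹
        have h2 : e⁻¹ * (e * w * e⁻¹) * e⁻¹⁻¹ = w := by group
        rwa [h2] at h1
      have h1 := W.mul_mem (W.inv_mem (he w hwM)) hw
      have h2 : (e * w * e⁻¹ * w⁻¹)⁻¹ * (e * w * e⁻¹) = w := by group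
      rwa [h2] at h1
  have hkey : ∀ t ∈ T, t ∈ Subgroup.normalizer (W : Set S) ∧ ∀ m ∈ M, t * m * t⁻¹ * m⁻¹ ∈ W := by
    intro t ht
    induction ht using Subgroup.closure_induction with
    | mem y hy =>
      have hy' : ∀ m ∈ M, y * m * y⁻¹ * m⁻¹ ∈ W := by
        rcases hy with hy | hy
        · intro m hm
          rw [hy]
          exact (le_sup_left : U M c ≤ W) (comm_mem_U M c m hm)
        · intro m hm
          rw [Set.mem_singleton_iff.mp hy]
          exact (le_sup_right : U M d ≤ W) (comm_mem_U M d m hm)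
      exact ⟨hgen y hy', hy'⟩
    | one => exact ⟨Subgroup.one_mem _, fun m hm => by simp⟩
    | mul a b _ _ iha ihb =>
      refine ⟨Subgroup.mul_mem _ iha.1 ihb.1, fun m hm => ?_⟩
      have h1 : a * (b * m * b⁻¹ * m⁻¹) * a⁻¹ ∈ W :=
        (Subgroup.mem_normalizer_iff.mp iha.1 _).mp (ihb.2 m hm)
      have h2 := W.mul_mem h1 (iha.2 m hm)
      have h3 : a * b * m * (a * b)⁻¹ * m⁻¹
          = a * (b * m * b⁻¹ * m⁻¹) * a⁻¹ * (a * m * a⁻¹ * m⁻¹) := by group
      rw [h3]; exact h2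
    | inv a _ iha =>
      refine ⟨Subgroup.inv_mem _ iha.1, fun m hm => ?_⟩
      have h1 : a⁻¹ * (a * m * a⁻¹ * m⁻¹)⁻¹ * a⁻¹⁻¹ ∈ W :=
        (Subgroup.mem_normalizer_iff.mp (Subgroup.inv_mem _ iha.1) _).mp (W.inv_mem (iha.2 m hm))
      have h3 : a⁻¹ * m * a⁻¹⁻¹ * m⁻¹ = a⁻¹ * (a * m * a⁻¹ * m⁻¹)⁻¹ * a⁻¹⁻¹ := by group
      rw [h3]; exact h1
  have hidx : (T ⊓ Subgroup.centralizer (M : Set S)).relIndex T ≤ 7 :=
    hLTS M h.comm h.sq W hWM hW16 7 (by norm_num) (by norm_num) T hTp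
      (fun t ht w hw => (Subgroup.mem_normalizer_iff.mp (hkey t ht).1 w).mp hw)
      (fun t ht m hm => (hkey t ht).2 m hm)
  have hCn : (Subgroup.centralizer (M : Set S)).Normal := Subgroup.normal_centralizer
  set C : Subgroup S := Subgroup.centralizer (M : Set S) with hCdef
  set L : Subgroup S := Subgroup.zpowers c ⊔ C with hLdef
  have hcT : c ∈ T := Subgroup.subset_closure (by simp)
  have hdT : d ∈ T := Subgroup.subset_closure (by simp)
  have hcL : c ∈ L := (le_sup_left : Subgroup.zpowers c ≤ L) (Subgroup.mem_zpowers c)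
  have h1 : (T ⊓ C).relIndex (T ⊓ L) * (T ⊓ L).relIndex T = (T ⊓ C).relIndex T :=
    Subgroup.relIndex_mul_relIndex _ _ _ (inf_le_inf_left T le_sup_right) inf_le_left
  have h2 : (T ⊓ C).relIndex (T ⊓ L) ≠ 1 := by
    intro h1'
    rw [Subgroup.relIndex_eq_one] at h1'
    exact hc1 (h1' ⟨hcT, hcL⟩).2
  have h3 : (T ⊓ C).relIndex (T ⊓ L) ∣ Nat.card (T ⊓ L : Subgroup S) := Subgroup.relIndex_dvd_card _ _
  have h4 : IsPGroup 7 ↥(T ⊓ L : Subgroup S) := hTp.to_le inf_le_left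
  obtain ⟨n, hn⟩ := IsPGroup.iff_card.mp h4
  rw [hn] at h3
  obtain ⟨j, hj, hj'⟩ := (Nat.dvd_prime_pow (by norm_num : Nat.Prime 7)).mp h3
  have hj1 : 1 ≤ j := by
    rcases Nat.eq_zero_or_pos j with rfl | hpos
    · rw [pow_zero] at hj'; exact absurd hj' h2
    · exact hpos
  have h5 : 7 ≤ (T ⊓ C).relIndex (T ⊓ L) := by
    rw [hj']
    calc 7 = 7 ^ 1 := by norm_num
      _ ≤ 7 ^ j := Nat.pow_le_pow_right (by norm_num) hj1
  have h6 : (T ⊓ L).relIndex T ≠ 0 := by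
    intro h0
    have hdv := Subgroup.relIndex_dvd_card (T ⊓ L) T
    rw [h0] at hdv
    exact Nat.card_pos.ne' (Nat.eq_zero_of_zero_dvd hdv)
  have h7 : (T ⊓ L).relIndex T = 1 := by
    by_contra hne
    have h8 : 2 ≤ (T ⊓ L).relIndex T := by omega
    have h9 := Nat.mul_le_mul h5 h8
    rw [h1] at h9
    omega
  rw [Subgroup.relIndex_eq_one] at h7
  have hdL : d ∈ L := (h7 hdT).2
  have hdL' : d ∈ ((Subgroup.zpowers c ⊔ C : Subgroup S) : Set S) := hdL
  rw [Subgroup.mul_normal] at hdL'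
  obtain ⟨a, ha, z, hz, rfl⟩ := Set.mem_mul.mp hdL'
  obtain ⟨k, rfl⟩ := mem_powers_iff_mem_zpowers.mpr ha
  refine ⟨k, ?_⟩
  exact hCn.conj_mem z hz (c ^ k)

end Cfsg.Agent.Helper79.NGP6B
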