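import Mathlib
import Cfsg.Agent.Helper16.NGDefs
import Cfsg.Agent.Helper79.NGP6B
import Cfsg.Agent.Helper10.NGLTS

/-!
# S4404, piece P6B (helper79), verbatim statement `ng_p6b` (from `NGP6B.ng_p6b_of` and helper10's LTS)
-/

set_option autoImplicit false

namespace Cfsg.Agent.Helper79.NGP6Bv
open Cfsg.Agent.Helper16.NG

variable {S : Type*} [Group S]

/-- P6B -/
theorem ng_p6b [Finite S] {M V : Subgroup S} {x : S} (h : Cfg M V x) (P : Subgroup S) (hP : IsPGroup 7 ↥P)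
    (c d : S) (hc : c ∈ P) (hd : d ∈ P) (hc1 : c ∉ Subgroup.centralizer (M : Set S))
    (hc7 : c ^ 7 ∈ Subgroup.centralizer (M : Set S)) (hcU : Nat.card (U M c) = 8) (hcV : V ≤ U M c)
    (hdU : Nat.card (U M d) = 8) (hdV : V ≤ U M d) :
    ∃ k : ℕ, d * (c ^ k)⁻¹ ∈ Subgroup.centralizer (M : Set S) :=
  Cfsg.Agent.Helper79.NGP6B.ng_p6b_of
    (fun M _ hc hs W hW h16 p hp hp5 T hT hn h2 =>
      Cfsg.Agent.Helper10.NGLTS.ng_LTS M hc hs W hW h16 p hp hp5 T hT hn h2)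
    h P hP c d hc hd hc1 hc7 hcU hcV hdU hdV

end Cfsg.Agent.Helper79.NGP6Bv
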