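import Mathlib
import Cfsg.Agent.Helper16.NGDefs
import Cfsg.Agent.Helper79.NGP6B

/-!
# S4404, piece P6C (helper79), for helper16's CALL S4404

`P` a `p`-group (`p ≥ 5`) normalized by `x`: `|P : C_P(V)| ≤ 7`.
`ng_p6_of` takes the pieces it uses as hypotheses; the verbatim statement is in `NGP6Cv`.
-/

set_option autoImplicit false

namespace Cfsg.Agent.Helper79.NGP6C
open Cfsg.Agent.Helper16.NG
open Cfsg.Agent.Helper79.NGP6B

variable {S : Type*} [Group S]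

theorem conj_mul_comm_eq (y z n : S) :
    y * z * n * (y * z)⁻¹ * n⁻¹ = y * (z * n * z⁻¹) * y⁻¹ * n⁻¹ := by group

theorem pow_succ_comm_eq (c y m : S) :
    c * y * m * (c * y)⁻¹ * m⁻¹
      = c * (y * m * y⁻¹) * c⁻¹ * (y * m * y⁻¹)⁻¹ * (y * m * y⁻¹ * m⁻¹) := by group

theorem pow_comm_mem_U (M : Subgroup S) [hMn : M.Normal] (c : S) :
    ∀ (J : ℕ) (m : S), m ∈ M → c ^ J * m * (c ^ J)⁻¹ * m⁻¹ ∈ U M c := by
  intro J
  induction J with
  | zero => intro m hm; simp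
  | succ J ih =>
    intro m hm
    have hm' : c ^ J * m * (c ^ J)⁻¹ ∈ M := hMn.conj_mem m hm (c ^ J)
    have h1 := (U M c).mul_mem (comm_mem_U M c _ hm') (ih m hm)
    rw [pow_succ', pow_succ_comm_eq]
    exact h1

/-- P6C, with P6A, P6B, FACTS (two of them) and LTW as hypotheses -/
theorem ng_p6_of [Finite S] {M V : Subgroup S} {x : S} (h : Cfg M V x)
    (hP6A : ∀ (p : ℕ), p.Prime → 5 ≤ p → ∀ (P : Subgroup S), IsPGroup p ↥P →
      (∀ a ∈ P, x * a * x⁻¹ ∈ P) → ∀ g ∈ P,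
      g * x * g⁻¹ * x⁻¹ ∈ Subgroup.centralizer (M : Set S) ∨
      (p = 7 ∧ (g * x * g⁻¹ * x⁻¹) ^ 7 ∈ Subgroup.centralizer (M : Set S) ∧
        Nat.card (U M (g * x * g⁻¹ * x⁻¹)) = 8 ∧ V ≤ U M (g * x * g⁻¹ * x⁻¹)))
    (hP6B : ∀ (P : Subgroup S), IsPGroup 7 ↥P → ∀ c d : S, c ∈ P → d ∈ P →
      c ∉ Subgroup.centralizer (M : Set S) → c ^ 7 ∈ Subgroup.centralizer (M : Set S) →
      Nat.card (U M c) = 8 → V ≤ U M c → Nat.card (U M d) = 8 → V ≤ U M d →
      ∃ k : ℕ, d * (c ^ k)⁻¹ ∈ Subgroup.centralizer (M : Set S))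
    (hNC : ∀ g : S, (∀ m ∈ M, g * (x * m * x⁻¹) * g⁻¹ = x * (g * m * g⁻¹) * x⁻¹) →
      ∀ v ∈ V, g * v * g⁻¹ ∈ V)
    (hCN : ∀ g : S, (∀ v ∈ V, g * v * g⁻¹ ∈ V) → (orderOf g).Coprime 6 →
      g ∈ Subgroup.centralizer (V : Set S))
    (hLTW : ∀ (W : Subgroup S), (∀ a ∈ W, ∀ b ∈ W, a * b = b * a) → (∀ a ∈ W, a ^ 2 = 1) →
      Nat.card W ≤ 16 → ∀ (p : ℕ), p.Prime → 5 ≤ p → ∀ (T : Subgroup S), IsPGroup p ↥T →
      (∀ t ∈ T, ∀ w ∈ W, t * w * t⁻¹ ∈ W) →
      (T ⊓ Subgroup.centralizer (W : Set S)).relIndex T ≤ 7)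
    (p : ℕ) (hp : p.Prime) (hp5 : 5 ≤ p)
    (P : Subgroup S) (hP : IsPGroup p ↥P) (hxP : ∀ a ∈ P, x * a * x⁻¹ ∈ P) :
    (P ⊓ Subgroup.centralizer (V : Set S)).relIndex P ≤ 7 := by
  classical
  have hMn : M.Normal := h.normal
  have hCn : (Subgroup.centralizer (M : Set S)).Normal := Subgroup.normal_centralizer
  have hcgP : ∀ g ∈ P, g * x * g⁻¹ * x⁻¹ ∈ P := by
    intro g hg
    have h1 := hxP g⁻¹ (P.inv_mem hg)
    have h2 := P.mul_mem hg h1
    have h3 : g * (x * g⁻¹ * x⁻¹) = g * x * g⁻¹ * x⁻¹ := by group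
    rwa [h3] at h2
  by_cases hall : ∀ g ∈ P, g * x * g⁻¹ * x⁻¹ ∈ Subgroup.centralizer (M : Set S)
  · -- all commutators `[g, x]` centralize `M`
    have hPV : P ≤ Subgroup.centralizer (V : Set S) := by
      intro g hg
      have hcomm : ∀ m ∈ M, g * (x * m * x⁻¹) * g⁻¹ = x * (g * m * g⁻¹) * x⁻¹ := by
        intro m hm
        have hm' : x * (g * m * g⁻¹) * x⁻¹ ∈ M := hMn.conj_mem _ (hMn.conj_mem m hm g) x
        have h1 := (Subgroup.mem_centralizer_iff.mp (hall g hg)) _ hm'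
        have h2 : g * (x * m * x⁻¹) * g⁻¹
            = (g * x * g⁻¹ * x⁻¹) * (x * (g * m * g⁻¹) * x⁻¹) * (g * x * g⁻¹ * x⁻¹)⁻¹ := by group
        rw [h2, ← h1]; group
      have hnorm := hNC g hcomm
      have hord : (orderOf g).Coprime 6 := by
        obtain ⟨k, hk⟩ := hP ⟨g, hg⟩
        have hk' : g ^ (p ^ k) = 1 := by
          have := congrArg Subtype.val hk
          simpa using this
        have hdvd : orderOf g ∣ p ^ k := orderOf_dvd_of_pow_eq_one hk'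
        obtain ⟨j, -, hj⟩ := (Nat.dvd_prime_pow hp).mp hdvd
        rw [hj]
        apply Nat.Coprime.pow_left
        have h6 : (6 : ℕ) = 2 * 3 := by norm_num
        rw [h6]
        apply Nat.Coprime.mul_right
        · exact (Nat.coprime_primes hp Nat.prime_two).mpr (by omega)
        · exact (Nat.coprime_primes hp Nat.prime_three).mpr (by omega)
      exact hCN g hnorm hord
    have h1 : (P ⊓ Subgroup.centralizer (V : Set S)).relIndex P = 1 :=
      Subgroup.relIndex_eq_one.mpr (le_inf le_rfl hPV)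
    omega
  · -- some commutator `c0 = [g0, x]` does not centralize `M`
    obtain ⟨g0, hg0, hc0⟩ : ∃ g0 ∈ P, g0 * x * g0⁻¹ * x⁻¹ ∉ Subgroup.centralizer (M : Set S) := by
      by_contra hcon
      apply hall
      intro g hg
      by_contra hg'
      exact hcon ⟨g, hg, hg'⟩
    have hc0P : g0 * x * g0⁻¹ * x⁻¹ ∈ P := hcgP g0 hg0
    rcases hP6A p hp hp5 P hP hxP g0 hg0 with
      hA | ⟨hp7, hc07, hU0, hVU0⟩
    · exact absurd hA hc0
    subst hp7
    generalize hc0def : g0 * x * g0⁻¹ * x⁻¹ = c0 at hc0 hc0P hc07 hU0 hVU0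
    have hcgL : ∀ k ∈ P, k * x * k⁻¹ * x⁻¹ ∈
        (Subgroup.zpowers c0 ⊔ Subgroup.centralizer (M : Set S) : Subgroup S) := by
      intro k hk
      rcases hP6A 7 hp hp5 P hP hxP k hk with
        hA | ⟨-, hck7, hUk, hVUk⟩
      · exact (le_sup_right : Subgroup.centralizer (M : Set S) ≤ _) hA
      · obtain ⟨j, hj⟩ := hP6B P hP c0 (k * x * k⁻¹ * x⁻¹) hc0P
          (hcgP k hk) hc0 hc07 hU0 hVU0 hUk hVUk
        have h1 : c0 ^ j ∈ (Subgroup.zpowers c0 ⊔ Subgroup.centralizer (M : Set S) : Subgroup S) :=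
          (le_sup_left : Subgroup.zpowers c0 ≤ _) (Subgroup.pow_mem _ (Subgroup.mem_zpowers c0) j)
        have h2 := Subgroup.mul_mem _ ((le_sup_right : Subgroup.centralizer (M : Set S) ≤
          (Subgroup.zpowers c0 ⊔ Subgroup.centralizer (M : Set S) : Subgroup S)) hj) h1
        have h3 : k * x * k⁻¹ * x⁻¹ * (c0 ^ j)⁻¹ * c0 ^ j = k * x * k⁻¹ * x⁻¹ := by group
        rwa [h3] at h2
    have hconjL : ∀ k ∈ P, k * c0 * k⁻¹ ∈
        (Subgroup.zpowers c0 ⊔ Subgroup.centralizer (M : Set S) : Subgroup S) := by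
      intro k hk
      have h1 := hcgL (k * g0) (P.mul_mem hk hg0)
      have h2 := Subgroup.mul_mem _ h1 (Subgroup.inv_mem _ (hcgL k hk))
      have h3 : k * g0 * x * (k * g0)⁻¹ * x⁻¹ * (k * x * k⁻¹ * x⁻¹)⁻¹ = k * c0 * k⁻¹ := by
        rw [← hc0def]; group
      rwa [h3] at h2
    have hUnorm : ∀ k ∈ P, ∀ w ∈ U M c0, k * w * k⁻¹ ∈ U M c0 := by
      intro k hk
      have hkL : k * c0 * k⁻¹ ∈
          ((Subgroup.zpowers c0 ⊔ Subgroup.centralizer (M : Set S) : Subgroup S) : Set S) := hconjL k hk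
      rw [Subgroup.mul_normal] at hkL
      obtain ⟨a, ha, z, hz, haz⟩ := Set.mem_mul.mp hkL
      obtain ⟨J, rfl⟩ := mem_powers_iff_mem_zpowers.mpr ha
      have hgenU : ∀ m ∈ M, k * (c0 * m * c0⁻¹ * m⁻¹) * k⁻¹ ∈ U M c0 := by
        intro m hm
        have hm' : k * m * k⁻¹ ∈ M := hMn.conj_mem m hm k
        have hz' : z * (k * m * k⁻¹) * z⁻¹ = k * m * k⁻¹ := by
          have h1 := Subgroup.mem_centralizer_iff.mp hz _ hm'
          rw [← h1]; group
        have h1 := pow_comm_mem_U M c0 J _ hm'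
        have h2 : k * (c0 * m * c0⁻¹ * m⁻¹) * k⁻¹
            = (k * c0 * k⁻¹) * (k * m * k⁻¹) * (k * c0 * k⁻¹)⁻¹ * (k * m * k⁻¹)⁻¹ := by group
        rw [h2, ← haz, conj_mul_comm_eq, hz']
        exact h1
      intro w hw
      have hle : U M c0 ≤ (U M c0).comap (MulAut.conj k).toMonoidHom := by
        show Subgroup.closure {u : S | ∃ m ∈ M, u = c0 * m * c0⁻¹ * m⁻¹} ≤ _
        rw [Subgroup.closure_le]
        rintro u ⟨m, hm, rfl⟩
        show k * (c0 * m * c0⁻¹ * m⁻¹) * k⁻¹ ∈ U M c0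
        exact hgenU m hm
      have h1 : k * w * k⁻¹ ∈ U M c0 := hle hw
      exact h1
    have hidx := hLTW (U M c0)
      (fun a ha b hb => h.comm a (U_le M c0 ha) b (U_le M c0 hb))
      (fun a ha => h.sq a (U_le M c0 ha)) (by rw [hU0]; norm_num) 7 hp hp5 P hP hUnorm
    have hle : P ⊓ Subgroup.centralizer ((U M c0 : Subgroup S) : Set S)
        ≤ P ⊓ Subgroup.centralizer (V : Set S) :=
      inf_le_inf_left P (Subgroup.centralizer_le (SetLike.coe_subset_coe.mpr hVU0))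
    have hne : (P ⊓ Subgroup.centralizer ((U M c0 : Subgroup S) : Set S)).relIndex P ≠ 0 := by
      intro h0
      have hdv := Subgroup.relIndex_dvd_card
        (P ⊓ Subgroup.centralizer ((U M c0 : Subgroup S) : Set S)) P
      rw [h0] at hdv
      exact Nat.card_pos.ne' (Nat.eq_zero_of_zero_dvd hdv)
    exact (Subgroup.relIndex_le_of_le_left hle hne).trans hidx

end Cfsg.Agent.Helper79.NGP6C
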