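import Mathlib
import Cfsg.Agent.Helper16.NGDefs
import Cfsg.Agent.Helper79.NGP6B
import Cfsg.Agent.Helper79.NGP6Bv
import Cfsg.Agent.Helper79.NGP6C
import Cfsg.Agent.Helper10.NGLTW
import Cfsg.Agent.Helper36.NGFACTS

/-!
# S4404, piece P6C (helper79): `ng_p6` with only the piece P6A left as a hypothesis
(P6B, FACTS, LTW are the landed ones).
-/

set_option autoImplicit false

namespace Cfsg.Agent.Helper79.NGP6Cof
open Cfsg.Agent.Helper16.NG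

variable {S : Type*} [Group S]

/-- P6C, with P6A as a hypothesis -/
theorem ng_p6_of_p6a [Finite S] {M V : Subgroup S} {x : S} (h : Cfg M V x)
    (hP6A : ∀ (p : ℕ), p.Prime → 5 ≤ p → ∀ (P : Subgroup S), IsPGroup p ↥P →
      (∀ a ∈ P, x * a * x⁻¹ ∈ P) → ∀ g ∈ P,
      g * x * g⁻¹ * x⁻¹ ∈ Subgroup.centralizer (M : Set S) ∨
      (p = 7 ∧ (g * x * g⁻¹ * x⁻¹) ^ 7 ∈ Subgroup.centralizer (M : Set S) ∧
        Nat.card (U M (g * x * g⁻¹ * x⁻¹)) = 8 ∧ V ≤ U M (g * x * g⁻¹ * x⁻¹)))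
    (p : ℕ) (hp : p.Prime) (hp5 : 5 ≤ p)
    (P : Subgroup S) (hP : IsPGroup p ↥P) (hxP : ∀ a ∈ P, x * a * x⁻¹ ∈ P) :
    (P ⊓ Subgroup.centralizer (V : Set S)).relIndex P ≤ 7 :=
  Cfsg.Agent.Helper79.NGP6C.ng_p6_of h hP6A
    (fun P hP c d hc hd hc1 hc7 hcU hcV hdU hdV =>
      Cfsg.Agent.Helper79.NGP6Bv.ng_p6b h P hP c d hc hd hc1 hc7 hcU hcV hdU hdV)
    (fun g hg => Cfsg.Agent.Helper36.NGFACTS.ng_V_norm_of_comm h g hg)
    (fun g hg hord => Cfsg.Agent.Helper36.NGFACTS.ng_V_cent_of_norm h g hg hord)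
    (fun W hWc hWsq hW16 p hp hp5 T hT hn =>
      Cfsg.Agent.Helper10.NGLTW.ng_LTW W hWc hWsq hW16 p hp hp5 T hT hn)
    p hp hp5 P hP hxP

end Cfsg.Agent.Helper79.NGP6Cof
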