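import Mathlib

/-!
# Odd-order `p`-subgroups of `PSL₂(F)`, `char F = 2`, are cyclic (helper79)

Piece P1 of helper3's CALL for S2202.  In characteristic two the centre of `SL₂(F)` is trivial,
so `PSL₂(F) ≃* SL₂(F)`; a `p`-subgroup `Q` (`p` odd) has a common eigenvector over the algebraic
closure (an eigenvector of a non-identity central element), and the eigenvalue character is
injective: an element with eigenvalue `1` has trace `0`, hence squares to `1`.
-/

set_option autoImplicit false

namespace Cfsg.Agent.Helper79

open Matrix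

/-- In characteristic two, the centre of `SL₂(F)` is trivial. -/
theorem sl2_char2_center_eq_bot (F : Type*) [Field F] [CharP F 2] :
    Subgroup.center (Matrix.SpecialLinearGroup (Fin 2) F) = ⊥ := by
  rw [Subgroup.eq_bot_iff_forall]
  intro A hA
  rw [Matrix.SpecialLinearGroup.mem_center_iff] at hA
  obtain ⟨r, hr, hA⟩ := hA
  rw [Fintype.card_fin] at hr
  have h2 : (2 : F) = 0 := CharTwo.two_eq_zero
  have hr1 : r = 1 := by
    have h : (r - 1) ^ 2 = 0 := by
      linear_combination hr + (1 - r) * h2
    exact sub_eq_zero.mp ((pow_eq_zero_iff (two_ne_zero)).mp h)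
  apply Subtype.ext
  rw [← hA, hr1]
  simp

/-- A matrix of `SL₂` in characteristic two with trace zero squares to one. -/
theorem sl2_char2_sq_eq_one {F : Type*} [Field F] [CharP F 2]
    (A : Matrix.SpecialLinearGroup (Fin 2) F) (htr : A.1 0 0 + A.1 1 1 = 0) : A * A = 1 := by
  have h2 : (2 : F) = 0 := CharTwo.two_eq_zero
  have hdet : A.1 0 0 * A.1 1 1 - A.1 0 1 * A.1 1 0 = 1 := by
    rw [← Matrix.det_fin_two]
    exact A.2
  apply Subtype.ext
  show A.1 * A.1 = 1
  ext i j
  fin_cases i <;> fin_cases j
  · simp only [Matrix.mul_apply, Fin.sum_univ_two, Fin.zero_eta, Matrix.one_apply_eq]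
    linear_combination (A.1 0 0) * htr - hdet - h2
  · simp only [Matrix.mul_apply, Fin.sum_univ_two, Fin.zero_eta, Fin.mk_one]
    rw [Matrix.one_apply_ne (by decide)]
    linear_combination (A.1 0 1) * htr
  · simp only [Matrix.mul_apply, Fin.sum_univ_two, Fin.zero_eta, Fin.mk_one]
    rw [Matrix.one_apply_ne (by decide)]
    linear_combination (A.1 1 0) * htr
  · simp only [Matrix.mul_apply, Fin.sum_univ_two, Fin.mk_one, Matrix.one_apply_eq]
    linear_combination (A.1 1 1) * htr - hdet - h2

theorem isCyclic_pgroup_of_equiv_psl2_char2 {X : Type*} [Group X] (F : Type) [Field F] [Fintype F]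
    [CharP F 2] (e : X ≃* Matrix.ProjectiveSpecialLinearGroup (Fin 2) F) (p : ℕ) [Fact p.Prime]
    (hp : p ≠ 2) (Q : Subgroup X) (hQ : IsPGroup p Q) : IsCyclic Q := by
  have hcen := sl2_char2_center_eq_bot F
  let e1 : Matrix.ProjectiveSpecialLinearGroup (Fin 2) F ≃* Matrix.SpecialLinearGroup (Fin 2) F :=
    (QuotientGroup.quotientMulEquivOfEq hcen).trans QuotientGroup.quotientBot
  let ι : Q →* Matrix.SpecialLinearGroup (Fin 2) F :=
    (e1.toMonoidHom.comp e.toMonoidHom).comp Q.subtype
  have hι : Function.Injective ι := by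
    intro a b hab
    apply Subtype.ext
    exact e.injective (e1.injective hab)
  have hfin : Finite Q := Finite.of_injective ι hι
  rcases subsingleton_or_nontrivial Q with hs | hnt
  · exact isCyclic_of_subsingleton
  have hcnt : Nontrivial (Subgroup.center Q) := hQ.center_nontrivial
  obtain ⟨⟨z, hzc⟩, hz⟩ := exists_ne (1 : Subgroup.center Q)
  have hz1 : z ≠ 1 := fun h => hz (Subtype.ext h)
  -- pass to the algebraic closure
  let K := AlgebraicClosure F
  have hKinj : Function.Injective (algebraMap F K) := (algebraMap F K).injective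
  have hK2 : CharP K 2 := charP_of_injective_algebraMap hKinj 2
  have h2K : (2 : K) = 0 := CharTwo.two_eq_zero
  let m : Q → Matrix (Fin 2) (Fin 2) K := fun g => ((ι g).1).map (algebraMap F K)
  have hm1 : m 1 = 1 := by
    show ((ι 1).1).map (algebraMap F K) = 1
    rw [map_one]
    simp
  have hmmul : ∀ g h : Q, m (g * h) = m g * m h := by
    intro g h
    show ((ι (g * h)).1).map (algebraMap F K) = _
    rw [map_mul, Matrix.SpecialLinearGroup.coe_mul, Matrix.map_mul]
  have hmdet : ∀ g : Q, (m g).det = 1 := by
    intro g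
    have h1 : (m g).det = algebraMap F K ((ι g).1).det := by
      rw [RingHom.map_det]
      rfl
    rw [h1, (ι g).2, map_one]
  have hmeq1 : ∀ g : Q, m g = 1 → g = 1 := by
    intro g hg
    apply hι
    rw [map_one]
    apply Subtype.ext
    ext i j
    have h1 := congrFun (congrFun hg i) j
    have h2 : algebraMap F K ((ι g).1 i j) = algebraMap F K ((1 : Matrix (Fin 2) (Fin 2) F) i j) := by
      rw [show algebraMap F K ((ι g).1 i j) = m g i j from rfl, h1]
      by_cases hij : i = j
      · subst hij; simp
      · simp [Matrix.one_apply_ne hij]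
    exact hKinj h2
  -- an eigenvector of `z`
  obtain ⟨lam, hlam⟩ := Module.End.exists_eigenvalue (Matrix.toLin' (m z))
  obtain ⟨v, hv⟩ := hlam.exists_hasEigenvector
  have hv0 : v ≠ 0 := hv.2
  have hzv : m z *ᵥ v = lam • v := by
    have := hv.apply_eq_smul
    rwa [Matrix.toLin'_apply] at this
  -- every element of `Q` has `v` as an eigenvector
  have hev : ∀ g : Q, ∃ μ : K, m g *ᵥ v = μ • v := by
    intro g
    by_contra hcon
    push Not at hcon
    obtain ⟨w, hw⟩ : ∃ w, w = m g *ᵥ v := ⟨_, rfl⟩
    have hzw : m z *ᵥ w = lam • w := by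
      have hcomm : m z * m g = m g * m z := by
        rw [← hmmul, ← hmmul]
        congr 1
        exact (Subgroup.mem_center_iff.mp hzc g).symm
      rw [hw, Matrix.mulVec_mulVec, hcomm, ← Matrix.mulVec_mulVec, hzv, Matrix.mulVec_smul]
    -- determinant of `[v | w]` is nonzero
    have hD : v 0 * w 1 - v 1 * w 0 ≠ 0 := by
      intro hD
      by_cases h0 : v 0 = 0
      · have h1 : v 1 ≠ 0 := by
          intro h1
          apply hv0
          funext i
          fin_cases i
          · exact h0
          · exact h1
        apply hcon (w 1 / v 1)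
        rw [← hw]
        funext i
        fin_cases i
        · show w 0 = (w 1 / v 1) * v 0
          rw [h0, mul_zero]
          rw [h0, zero_mul, zero_sub, neg_eq_zero] at hD
          rcases mul_eq_zero.mp hD with h | h
          · exact absurd h h1
          · exact h
        · show w 1 = (w 1 / v 1) * v 1
          rw [div_mul_cancel₀ _ h1]
      · apply hcon (w 0 / v 0)
        rw [← hw]
        funext i
        fin_cases i
        · show w 0 = (w 0 / v 0) * v 0
          rw [div_mul_cancel₀ _ h0]
        · show w 1 = (w 0 / v 0) * v 1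
          rw [div_mul_eq_mul_div, eq_div_iff h0]
          linear_combination hD
    -- so `m z` is the scalar `lam`
    have e1 := congrFun hzv 0
    have e2 := congrFun hzv 1
    have e3 := congrFun hzw 0
    have e4 := congrFun hzw 1
    simp only [Matrix.mulVec, dotProduct, Fin.sum_univ_two, Pi.smul_apply, smul_eq_mul] at e1 e2 e3 e4
    have a01 : m z 0 1 = 0 := by
      have : m z 0 1 * (v 0 * w 1 - v 1 * w 0) = 0 := by
        linear_combination (v 0) * e3 - (w 0) * e1
      rcases mul_eq_zero.mp this with h | h
      · exact h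
      · exact absurd h hD
    have a00 : m z 0 0 = lam := by
      have : (m z 0 0 - lam) * (v 0 * w 1 - v 1 * w 0) = 0 := by
        linear_combination (w 1) * e1 - (v 1) * e3
      rcases mul_eq_zero.mp this with h | h
      · exact sub_eq_zero.mp h
      · exact absurd h hD
    have a10 : m z 1 0 = 0 := by
      have : m z 1 0 * (v 0 * w 1 - v 1 * w 0) = 0 := by
        linear_combination (w 1) * e2 - (v 1) * e4
      rcases mul_eq_zero.mp this with h | h
      · exact h
      · exact absurd h hD
    have a11 : m z 1 1 = lam := by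
      have : (m z 1 1 - lam) * (v 0 * w 1 - v 1 * w 0) = 0 := by
        linear_combination (v 0) * e4 - (w 0) * e2
      rcases mul_eq_zero.mp this with h | h
      · exact sub_eq_zero.mp h
      · exact absurd h hD
    have hdz := hmdet z
    rw [Matrix.det_fin_two, a00, a11, a01, a10] at hdz
    have hlam1 : lam = 1 := by
      have h : (lam - 1) ^ 2 = 0 := by
        linear_combination hdz + (1 - lam) * h2K
      exact sub_eq_zero.mp ((pow_eq_zero_iff (two_ne_zero)).mp h)
    apply hz1
    apply hmeq1
    ext i j
    fin_cases i <;> fin_cases j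
    · simpa [hlam1] using a00
    · simpa using a01
    · simpa using a10
    · simpa [hlam1] using a11
  choose c hc using hev
  have huniq : ∀ a b : K, a • v = b • v → a = b := by
    intro a b hab
    obtain ⟨i, hi⟩ : ∃ i, v i ≠ 0 := by
      by_contra hcon
      push Not at hcon
      exact hv0 (funext hcon)
    have := congrFun hab i
    simp only [Pi.smul_apply, smul_eq_mul] at this
    exact mul_right_cancel₀ hi this
  have hc1 : c 1 = 1 := by
    apply huniq
    rw [← hc 1, hm1, Matrix.one_mulVec, one_smul]
  have hcmul : ∀ g h : Q, c (g * h) = c g * c h := by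
    intro g h
    apply huniq
    rw [← hc (g * h), hmmul, ← Matrix.mulVec_mulVec, hc h, Matrix.mulVec_smul, hc g, smul_smul,
      mul_comm]
  let χ : Q →* K :=
    { toFun := c
      map_one' := hc1
      map_mul' := hcmul }
  have hker : ∀ g : Q, c g = 1 → g = 1 := by
    intro g hg
    have hfix : (m g - 1) *ᵥ v = 0 := by
      rw [Matrix.sub_mulVec, hc g, hg, one_smul, Matrix.one_mulVec, sub_self]
    have hdet0 : (m g - 1).det = 0 := Matrix.exists_mulVec_eq_zero_iff.mp ⟨v, hv0, hfix⟩
    have hdg := hmdet g
    rw [Matrix.det_fin_two] at hdet0 hdg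
    simp only [Matrix.sub_apply, Matrix.one_apply_eq] at hdet0
    rw [Matrix.one_apply_ne (by decide : (0 : Fin 2) ≠ 1),
      Matrix.one_apply_ne (by decide : (1 : Fin 2) ≠ 0), sub_zero, sub_zero] at hdet0
    have htrK : m g 0 0 + m g 1 1 = 0 := by
      linear_combination hdg - hdet0 + h2K
    have htr : (ι g).1 0 0 + (ι g).1 1 1 = 0 := by
      apply hKinj
      rw [map_add, map_zero]
      exact htrK
    have hsq : ι g * ι g = 1 := sl2_char2_sq_eq_one (ι g) htr
    have hg2 : g ^ 2 = 1 := by
      apply hι
      rw [map_pow, map_one, pow_two, hsq]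
    obtain ⟨k, hk⟩ := hQ g
    have ho1 : orderOf g ∣ 2 := orderOf_dvd_of_pow_eq_one hg2
    have ho2 : orderOf g ∣ p ^ k := orderOf_dvd_of_pow_eq_one hk
    have hcop : Nat.Coprime 2 (p ^ k) := by
      apply Nat.Coprime.pow_right
      rw [Nat.coprime_primes Nat.prime_two (Fact.out : p.Prime)]
      exact fun h => hp h.symm
    exact orderOf_eq_one_iff.mp (Nat.eq_one_of_dvd_coprimes hcop ho1 ho2)
  have hχ : Function.Injective χ := by
    intro a b hab
    have hab' : c a = c b := hab
    have h1 : c (a⁻¹ * b) = 1 := by
      have h2 : c a * c (a⁻¹ * b) = c a * 1 := by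
        rw [← hcmul, mul_inv_cancel_left, mul_one, hab']
      have ha0 : c a ≠ 0 := by
        intro h0
        have h3 : c a * c a⁻¹ = 1 := by rw [← hcmul, mul_inv_cancel, hc1]
        rw [h0, zero_mul] at h3
        exact zero_ne_one h3
      exact mul_left_cancel₀ ha0 h2
    have := hker _ h1
    exact (inv_mul_eq_one.mp this)
  exact isCyclic_of_injective_ringHom χ hχ

end Cfsg.Agent.Helper79
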