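-- helper79 library: second consequence of the lattice bound for a Sylow subgroup of prime order
-- (CALL S4441, consumer piece C3): the sum of the exceptional characters at a generator of `P`
-- has absolute value at most `1`.
import Cfsg.Agent.Helper79.S4441Setup

set_option autoImplicit false
open Cfsg
open scoped ComplexConjugate

namespace Cfsg.Agent.Helper79

universe u

variable {G : Type u} [Group G] [Fintype G]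

/-- Galois conjugation of linear characters. -/
noncomputable def galHom {Q : Type*} [Monoid Q] (σ : ℂ ≃+* ℂ) (ψ : Q →* ℂˣ) : Q →* ℂˣ :=
  (Units.map σ.toMulEquiv.toMonoidHom).comp ψ

theorem galHom_apply {Q : Type*} [Monoid Q] (σ : ℂ ≃+* ℂ) (ψ : Q →* ℂˣ) (q : Q) :
    ((galHom σ ψ q : ℂˣ) : ℂ) = σ ((ψ q : ℂˣ) : ℂ) := rfl

theorem galHom_symm_galHom {Q : Type*} [Monoid Q] (σ : ℂ ≃+* ℂ) (ψ : Q →* ℂˣ) :
    galHom σ.symm (galHom σ ψ) = ψ := by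
  apply MonoidHom.ext
  intro q
  apply Units.ext
  rw [galHom_apply, galHom_apply, RingEquiv.symm_apply_apply]

theorem galHom_galHom_symm {Q : Type*} [Monoid Q] (σ : ℂ ≃+* ℂ) (ψ : Q →* ℂˣ) :
    galHom σ (galHom σ.symm ψ) = ψ := by
  apply MonoidHom.ext
  intro q
  apply Units.ext
  rw [galHom_apply, galHom_apply, RingEquiv.apply_symm_apply]

theorem galHom_ne_one {Q : Type*} [Monoid Q] (σ : ℂ ≃+* ℂ) (ψ : Q →* ℂˣ) (h : ψ ≠ 1) :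
    galHom σ ψ ≠ 1 := by
  intro h1
  apply h
  rw [← galHom_symm_galHom σ ψ, h1]
  apply MonoidHom.ext
  intro q
  apply Units.ext
  rw [galHom_apply]
  simp

omit [Fintype G] in
/-- The orbit of a linear character of `P` under the normalizer of `P`. -/
def hOrb (P : Subgroup G) (ψ : P →* ℂˣ) : Set (P →* ℂˣ) :=
  {ψ' | ∃ n : G, n ∈ Subgroup.normalizer (P : Set G) ∧
    ∀ w w' : P, (w' : G) = n * w * n⁻¹ → ψ' w' = ψ w}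

omit [Fintype G] in
theorem hOrb_self (P : Subgroup G) (ψ : P →* ℂˣ) : ψ ∈ hOrb P ψ := by
  refine ⟨1, Subgroup.one_mem _, fun w w' h => ?_⟩
  have : w' = w := Subtype.ext (by rw [h]; simp)
  rw [this]

omit [Fintype G] in
theorem galHom_mem_hOrb (P : Subgroup G) (σ : ℂ ≃+* ℂ) (ψ ψ' : P →* ℂˣ) (h : ψ' ∈ hOrb P ψ) :
    galHom σ ψ' ∈ hOrb P (galHom σ ψ) := by
  obtain ⟨n, hn, hw⟩ := h
  refine ⟨n, hn, fun w w' hww => ?_⟩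
  apply Units.ext
  rw [galHom_apply, galHom_apply, hw w w' hww]

theorem map_finsum_hOrb (P : Subgroup G) (σ : ℂ ≃+* ℂ) (ψ : P →* ℂˣ) (y : P) :
    σ (∑ᶠ ψ' ∈ hOrb P ψ, ((ψ' y : ℂˣ) : ℂ)) = ∑ᶠ ψ' ∈ hOrb P ψ, σ ((ψ' y : ℂˣ) : ℂ) := by
  have : Finite (P →* ℂˣ) := Helper80.finite_hom
  exact AddMonoidHom.map_finsum_mem (fun ψ' : P →* ℂˣ => ((ψ' y : ℂˣ) : ℂ))
    σ.toAddEquiv.toAddMonoidHom (Set.toFinite _)

theorem hOrb_galHom_sum (P : Subgroup G) (σ : ℂ ≃+* ℂ) (ψ : P →* ℂˣ) (y : P) :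
    ∑ᶠ ψ' ∈ hOrb P (galHom σ ψ), ((ψ' y : ℂˣ) : ℂ)
      = σ (∑ᶠ ψ' ∈ hOrb P ψ, ((ψ' y : ℂˣ) : ℂ)) := by
  rw [map_finsum_hOrb]
  symm
  apply finsum_mem_eq_of_bijOn (galHom σ)
  · refine ⟨fun ψ' h => galHom_mem_hOrb P σ ψ ψ' h, fun a _ b _ hab => ?_, fun ψ'' h => ?_⟩
    · have h1 := congrArg (galHom σ.symm) hab
      rwa [galHom_symm_galHom, galHom_symm_galHom] at h1
    · refine ⟨galHom σ.symm ψ'', ?_, galHom_galHom_symm σ ψ''⟩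
      have h1 := galHom_mem_hOrb P σ.symm (galHom σ ψ) ψ'' h
      rwa [galHom_symm_galHom] at h1
  · intro ψ' _
    rfl

/-- Two normalizer orbits with the same character sums off the identity coincide. -/
theorem s4441_orb_distinct (P : Subgroup G) (ψ₁ ψ₂ : P →* ℂˣ) (hcomm : ∀ a b : P, a * b = b * a)
    (h : ∀ y : P, y ≠ 1 → ∑ᶠ ψ' ∈ hOrb P ψ₁, ((ψ' y : ℂˣ) : ℂ)
      = ∑ᶠ ψ' ∈ hOrb P ψ₂, ((ψ' y : ℂˣ) : ℂ)) :
    ψ₁ ∈ hOrb P ψ₂ := by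
  classical
  have : Fintype P := Fintype.ofFinite _
  have : Finite (P →* ℂˣ) := Helper80.finite_hom
  have : Fintype (P →* ℂˣ) := Fintype.ofFinite _
  obtain ⟨S, hS⟩ : ∃ S : (P →* ℂˣ) → P → ℂ,
      S = fun ψ y => ∑ᶠ ψ' ∈ hOrb P ψ, ((ψ' y : ℂˣ) : ℂ) := ⟨_, rfl⟩
  have hSsum : ∀ ψ y, S ψ y
      = ∑ ψ' ∈ Finset.univ.filter (fun ψ' => ψ' ∈ hOrb P ψ), ((ψ' y : ℂˣ) : ℂ) := by
    intro ψ y
    rw [hS]
    exact Helper81.finsum_mem_eq_sum_filter_univ _ _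
  have hinner : ∀ lam ψ : P →* ℂˣ, ∑ q : P, conj ((lam q : ℂˣ) : ℂ) * S ψ q
      = if lam ∈ hOrb P ψ then (Fintype.card P : ℂ) else 0 := by
    intro lam ψ
    simp only [hSsum, Finset.mul_sum]
    rw [Finset.sum_comm]
    rw [Finset.sum_congr rfl (fun ψ' _ => Helper82.excHom_orth hcomm lam ψ')]
    rw [Finset.sum_ite_eq (Finset.univ.filter (fun ψ' => ψ' ∈ hOrb P ψ)) lam]
    simp
  have hdiff : ∀ lam : P →* ℂˣ, ∑ q : P, conj ((lam q : ℂˣ) : ℂ) * (S ψ₁ q - S ψ₂ q)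
      = S ψ₁ 1 - S ψ₂ 1 := by
    intro lam
    rw [Finset.sum_eq_single (1 : P)]
    · simp
    · intro q _ hq
      have := h q hq
      rw [hS]
      simp only
      rw [this, sub_self, mul_zero]
    · intro h'
      exact absurd (Finset.mem_univ _) h'
  have hval : ∀ lam : P →* ℂˣ, S ψ₁ 1 - S ψ₂ 1
      = (if lam ∈ hOrb P ψ₁ then (Fintype.card P : ℂ) else 0)
        - (if lam ∈ hOrb P ψ₂ then (Fintype.card P : ℂ) else 0) := by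
    intro lam
    rw [← hdiff lam, ← hinner lam ψ₁, ← hinner lam ψ₂, ← Finset.sum_sub_distrib]
    refine Finset.sum_congr rfl fun q _ => by ring
  by_contra hcon
  have e1 := hval ψ₁
  have e2 := hval ψ₂
  rw [if_pos (hOrb_self P ψ₁), if_neg hcon] at e1
  rw [if_pos (hOrb_self P ψ₂)] at e2
  have hc : (Fintype.card P : ℂ) ≠ 0 := by exact_mod_cast Fintype.card_ne_zero
  by_cases h21 : ψ₂ ∈ hOrb P ψ₁
  · rw [if_pos h21, sub_self] at e2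
    rw [e2, sub_zero] at e1
    exact hc e1.symm
  · rw [if_neg h21] at e2
    rw [e2] at e1
    apply hc
    linear_combination (-1 / 2 : ℂ) * e1

/-- Any two nontrivial linear characters of a group of prime order are Galois conjugate. -/
theorem s4441_trans {p : ℕ} [Fact p.Prime] (P : Sylow p G) (hP : Nat.card P = p)
    (ψ₀ ψ₂ : (P : Subgroup G) →* ℂˣ) (h₀ : ψ₀ ≠ 1) (h₂ : ψ₂ ≠ 1) :
    ∃ σ : ℂ ≃+* ℂ, galHom σ ψ₀ = ψ₂ := by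
  have hp : p.Prime := Fact.out
  obtain ⟨x, hx, hx1⟩ := s4441_exists_ne_one P hP
  obtain ⟨hord, hgen⟩ := s4441_gen P hP x hx hx1
  have hgen' : ∀ q : (P : Subgroup G), ∃ i : ℕ, q = (⟨x, hx⟩ : (P : Subgroup G)) ^ i := by
    intro q
    obtain ⟨i, hi⟩ := hgen q q.2
    exact ⟨i, Subtype.ext (by rw [hi]; rfl)⟩
  have hext : ∀ ψ ψ' : (P : Subgroup G) →* ℂˣ, ψ ⟨x, hx⟩ = ψ' ⟨x, hx⟩ → ψ = ψ' := by
    intro ψ ψ' h
    apply MonoidHom.ext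
    intro q
    obtain ⟨i, rfl⟩ := hgen' q
    rw [map_pow, map_pow, h]
  have hxp : (⟨x, hx⟩ : (P : Subgroup G)) ^ p = 1 := by
    apply Subtype.ext
    have h1 := pow_orderOf_eq_one x
    rw [hord] at h1
    exact h1
  have hroot : ∀ ψ : (P : Subgroup G) →* ℂˣ, ((ψ ⟨x, hx⟩ : ℂˣ) : ℂ) ^ p = 1 := by
    intro ψ
    rw [← Units.val_pow_eq_pow_val, ← map_pow, hxp, map_one, Units.val_one]
  have hne : ∀ ψ : (P : Subgroup G) →* ℂˣ, ψ ≠ 1 → ((ψ ⟨x, hx⟩ : ℂˣ) : ℂ) ≠ 1 := by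
    intro ψ hψ h
    apply hψ
    apply hext
    apply Units.ext
    rw [h]
    simp
  have hprim : IsPrimitiveRoot ((ψ₀ ⟨x, hx⟩ : ℂˣ) : ℂ) p := by
    have h1 := IsPrimitiveRoot.orderOf ((ψ₀ ⟨x, hx⟩ : ℂˣ) : ℂ)
    rwa [orderOf_eq_prime (hroot ψ₀) (hne ψ₀ h₀)] at h1
  obtain ⟨j, hj, hz⟩ := hprim.eq_pow_of_pow_eq_one (hroot ψ₂)
  have hj0 : j ≠ 0 := by
    rintro rfl
    rw [pow_zero] at hz
    exact hne ψ₂ h₂ hz.symm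
  have hcop : Nat.Coprime j p :=
    Nat.Coprime.symm ((Nat.Prime.coprime_iff_not_dvd hp).mpr
      (Nat.not_dvd_of_pos_of_lt (Nat.pos_of_ne_zero hj0) hj))
  obtain ⟨σ, hσ⟩ := Helper75.exists_ringEquiv_pow p hp.ne_zero j hcop
  refine ⟨σ, hext _ _ (Units.ext ?_)⟩
  rw [galHom_apply, hσ _ (hroot ψ₀), hz]

/-- An automorphism fixing the `M₀`-th roots of unity with a prescribed action on the `p`-th roots
of unity. -/
theorem s4441_tau (p : ℕ) [Fact p.Prime] (M₀ : ℕ) (hM : ¬ p ∣ M₀) (hM0 : M₀ ≠ 0) (σ : ℂ ≃+* ℂ) :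
    ∃ τ : ℂ ≃+* ℂ, (∀ w : ℂ, w ^ M₀ = 1 → τ w = w) ∧ ∀ w : ℂ, w ^ p = 1 → τ w = σ w := by
  have hp : p.Prime := Fact.out
  obtain ⟨k, hk, hσ⟩ := Helper75.exists_pow_of_ringEquiv σ p hp.ne_zero
  have hco : Nat.Coprime p M₀ := (Nat.Prime.coprime_iff_not_dvd hp).mpr hM
  obtain ⟨k', hk'1, hk'2⟩ := Nat.chineseRemainder hco k 1
  have hc1 : Nat.Coprime k' p := by
    have h1 := hk'1.gcd_eq
    unfold Nat.Coprime
    rw [h1]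
    exact hk
  have hc2 : Nat.Coprime k' M₀ := by
    have h1 := hk'2.gcd_eq
    unfold Nat.Coprime
    rw [h1]
    exact Nat.gcd_one_left _
  obtain ⟨τ, hτ⟩ := Helper75.exists_ringEquiv_pow (p * M₀) (mul_ne_zero hp.ne_zero hM0) k'
    (Nat.Coprime.mul_right hc1 hc2)
  have e1 : k' % p = k % p := hk'1
  have e2 : k' % M₀ = 1 % M₀ := hk'2
  refine ⟨τ, fun w hw => ?_, fun w hw => ?_⟩
  · have hw' : w ^ (p * M₀) = 1 := by rw [mul_comm, pow_mul, hw, one_pow]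
    rw [hτ w hw', pow_eq_pow_mod k' hw, e2, ← pow_eq_pow_mod 1 hw, pow_one]
  · have hw' : w ^ (p * M₀) = 1 := by rw [pow_mul, hw, one_pow]
    rw [hτ w hw', hσ w hw, pow_eq_pow_mod k' hw, pow_eq_pow_mod k hw, e1]

/-- Second consequence of the lattice bound: the sum of the exceptional characters at a
generator of `P` has absolute value at most `1`. -/
theorem s4441_W2 {p : ℕ} [Fact p.Prime] (P : Sylow p G) (hP : Nat.card P = p)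
    (hLB : Helper75.LatticeBoundStmt G p)
    (ζ : ((P : Subgroup G) →* ℂˣ) → Cfsg.IrrCharacter G) (d δ : ℤ) (hδ : δ = 1 ∨ δ = -1)
    (hval : ∀ ψ : (P : Subgroup G) →* ℂˣ, ψ ≠ 1 → ∀ (z : G) (y : (P : Subgroup G)),
      Cfsg.IsPPart p z (y : G) → (y : G) ≠ 1 → (ζ ψ : G → ℂ) z
        = (d : ℂ) + (δ : ℂ) * ∑ᶠ ψ' ∈ hOrb (P : Subgroup G) ψ, ((ψ' y : ℂˣ) : ℂ))
    (horb : ∀ ψ ψ' : (P : Subgroup G) →* ℂˣ, ψ ≠ 1 → ψ' ∈ hOrb (P : Subgroup G) ψ →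
      ζ ψ' = ζ ψ)
    (Yf : Finset (Cfsg.IrrCharacter G))
    (hYf : ∀ θ, θ ∈ Yf ↔ ∃ ψ : (P : Subgroup G) →* ℂˣ, ψ ≠ 1 ∧ ζ ψ = θ)
    (x : G) (hx : x ∈ (P : Subgroup G)) (hx1 : x ≠ 1) :
    ‖∑ θ ∈ Yf, (θ : G → ℂ) x‖ ≤ 1 := by
  classical
  have hp : p.Prime := Fact.out
  have : Fintype (Cfsg.IrrCharacter G) := Fintype.ofFinite _
  have hcomm := s4441_comm P hP
  obtain ⟨K, hKp, hKC, hKreg, hKx⟩ := s4441_K P hP
  obtain ⟨M₀, hM1, hM2, hM3, hM0⟩ := s4441_M0 P hP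
  obtain ⟨hord, hgen⟩ := s4441_gen P hP x hx hx1
  have hδ0 : (δ : ℂ) ≠ 0 := by
    rcases hδ with h | h <;> rw [h] <;> norm_num
  rcases Finset.eq_empty_or_nonempty Yf with hY0 | ⟨θ₀, hθ₀⟩
  · rw [hY0, Finset.sum_empty, norm_zero]
    exact zero_le_one
  obtain ⟨ψ₀, hψ₀, -⟩ := (hYf θ₀).mp hθ₀
  obtain ⟨xb, hxb⟩ : ∃ xb : (P : Subgroup G), xb = ⟨x, hx⟩ := ⟨_, rfl⟩
  have hxbv : (xb : G) = x := by rw [hxb]
  have hxb1 : (xb : G) ≠ 1 := by rw [hxbv]; exact hx1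
  have hxp : x ^ p = 1 := by
    have h1 := pow_orderOf_eq_one x
    rwa [hord] at h1
  have hxbp : xb ^ p = 1 := by
    apply Subtype.ext
    rw [Subgroup.coe_pow, hxbv, hxp]
    rfl
  have hroot : ∀ ψ : (P : Subgroup G) →* ℂˣ, ((ψ xb : ℂˣ) : ℂ) ^ p = 1 := by
    intro ψ
    rw [← Units.val_pow_eq_pow_val, ← map_pow, hxbp, map_one, Units.val_one]
  have hpp : Cfsg.IsPPart p x (xb : G) := by
    rw [hxbv]
    exact Helper82.excBlock_isPPart_self x ⟨1, by rw [hord, pow_one]⟩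
  -- values at `x`
  have hvx : ∀ ψ : (P : Subgroup G) →* ℂˣ, ψ ≠ 1 → (ζ ψ : G → ℂ) x
      = (d : ℂ) + (δ : ℂ) * ∑ᶠ ψ' ∈ hOrb (P : Subgroup G) ψ, ((ψ' xb : ℂˣ) : ℂ) :=
    fun ψ hψ => hval ψ hψ x xb hpp hxb1
  have hgalx : ∀ (σ : ℂ ≃+* ℂ) (ψ : (P : Subgroup G) →* ℂˣ), ψ ≠ 1 →
      (ζ (galHom σ ψ) : G → ℂ) x = σ ((ζ ψ : G → ℂ) x) := by
    intro σ ψ hψ
    rw [hvx _ (galHom_ne_one σ ψ hψ), hvx ψ hψ, hOrb_galHom_sum, map_add, map_mul, map_intCast,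
      map_intCast]
  -- the exceptional characters are constant on the section of `x`
  have hsec : ∀ ψ : (P : Subgroup G) →* ℂˣ, ψ ≠ 1 → ∀ k : K,
      (ζ ψ : G → ℂ) (x * (k : G)) = (ζ ψ : G → ℂ) x := by
    intro ψ hψ k
    have hpk : Cfsg.IsPPart p (x * (k : G)) (xb : G) := by
      rw [hxbv]
      exact ⟨(k : G), rfl, Subgroup.mem_centralizer_iff.mp (hKC _ k.2) x hx,
        ⟨1, by rw [hord, pow_one]⟩, hKreg _ k.2⟩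
    rw [hval ψ hψ _ xb hpk hxb1, hvx ψ hψ]
  -- the Galois orbit of `η`
  obtain ⟨η, hη⟩ : ∃ η : Cfsg.IrrCharacter G, η = ζ ψ₀ := ⟨_, rfl⟩
  obtain ⟨𝒪, h𝒪⟩ : ∃ 𝒪 : Finset (Cfsg.IrrCharacter G), ∀ χ', χ' ∈ 𝒪 ↔ ∃ σ : ℂ ≃+* ℂ,
      χ' = galIrr σ η :=
    ⟨Finset.univ.filter (fun χ' => ∃ σ : ℂ ≃+* ℂ, χ' = galIrr σ η), fun χ' => by simp⟩
  have hgal𝒪 : ∀ (σ : ℂ ≃+* ℂ), ∀ χ' ∈ 𝒪, galIrr σ χ' ∈ 𝒪 := by
    intro σ χ' hχ'
    obtain ⟨σ', rfl⟩ := (h𝒪 χ').mp hχ'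
    exact (h𝒪 _).mpr ⟨σ'.trans σ, Subtype.ext (funext fun g => rfl)⟩
  have hη𝒪 : η ∈ 𝒪 := (h𝒪 η).mpr ⟨RingEquiv.refl ℂ, Subtype.ext (funext fun g => rfl)⟩
  obtain ⟨ℛ, hℛ⟩ : ∃ ℛ : Finset (Cfsg.IrrCharacter G),
      ℛ = 𝒪.filter (fun χ' : Cfsg.IrrCharacter G => (χ' : G → ℂ) x = (η : G → ℂ) x) := ⟨_, rfl⟩
  have hηℛ : η ∈ ℛ := by
    rw [hℛ, Finset.mem_filter]
    exact ⟨hη𝒪, rfl⟩
  have hstab : ∀ χ' ∈ 𝒪, ∀ σ : ℂ ≃+* ℂ, ∃ χ'' ∈ 𝒪, ∀ g : G,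
      (χ'' : G → ℂ) g = σ ((χ' : G → ℂ) g) :=
    fun χ' hχ' σ => ⟨galIrr σ χ', hgal𝒪 σ χ' hχ', fun g => rfl⟩
  have h𝒪x : ∀ σ : ℂ ≃+* ℂ, (galIrr σ η : G → ℂ) x = (ζ (galHom σ ψ₀) : G → ℂ) x := by
    intro σ
    rw [galIrr_apply, hgalx σ ψ₀ hψ₀, hη]
  have hrep : ∀ χ' ∈ 𝒪, ∃ χ₀ ∈ ℛ, ∃ τ : ℂ ≃+* ℂ, (∀ w : ℂ, w ^ M₀ = 1 → τ w = w) ∧
      ∀ g : G, (χ' : G → ℂ) g = τ ((χ₀ : G → ℂ) g) := by
    intro χ' hχ'
    obtain ⟨σ, rfl⟩ := (h𝒪 χ').mp hχ'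
    obtain ⟨τ, hτ1, hτ2⟩ := s4441_tau p M₀ hM1 hM0 σ
    have hhom : galHom τ ψ₀ = galHom σ ψ₀ := by
      apply MonoidHom.ext
      intro q
      apply Units.ext
      rw [galHom_apply, galHom_apply]
      apply hτ2
      rw [← Units.val_pow_eq_pow_val, ← map_pow]
      have hq : q ^ p = 1 := by
        have h1 := pow_card_eq_one' (G := (P : Subgroup G)) (x := q)
        have h2 : Nat.card (P : Subgroup G) = p := hP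
        rwa [h2] at h1
      rw [hq, map_one, Units.val_one]
    refine ⟨galIrr τ.symm (galIrr σ η), ?_, τ, hτ1, fun g => ?_⟩
    · rw [hℛ, Finset.mem_filter]
      refine ⟨hgal𝒪 _ _ (hgal𝒪 σ η hη𝒪), ?_⟩
      rw [galIrr_apply, h𝒪x σ, ← hhom, ← h𝒪x τ, galIrr_apply, RingEquiv.symm_apply_apply]
    · rw [galIrr_apply τ.symm, RingEquiv.apply_symm_apply]
  have key := hLB x K 𝒪 ℛ M₀ hord hKp (hKx x hx hx1) hstab hM1 hM2 hM3 hrep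
  have hdeg : ∀ χ' ∈ 𝒪, Cfsg.charDegree (χ' : G → ℂ) = Cfsg.charDegree (η : G → ℂ) := by
    intro χ' hχ'
    obtain ⟨σ, rfl⟩ := (h𝒪 χ').mp hχ'
    exact galIrr_charDegree σ η
  have hterm : ∀ χ' ∈ 𝒪, ∑ k : K, (χ' : G → ℂ) 1 * (χ' : G → ℂ) (x * (k : G))
      = (Nat.card K : ℂ) * ((Cfsg.charDegree (η : G → ℂ) : ℂ) * (χ' : G → ℂ) x) := by
    intro χ' hχ'
    obtain ⟨σ, rfl⟩ := (h𝒪 χ').mp hχ'
    have e1 : ∀ k : K, (galIrr σ η : G → ℂ) 1 * (galIrr σ η : G → ℂ) (x * (k : G))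
        = (Cfsg.charDegree (η : G → ℂ) : ℂ) * (galIrr σ η : G → ℂ) x := by
      intro k
      rw [galIrr_one, Helper81.irr_one_eq_charDegree, galIrr_apply, galIrr_apply, hη,
        hsec ψ₀ hψ₀ k]
    rw [Finset.sum_congr rfl (fun k _ => e1 k), Finset.sum_const, Finset.card_univ,
      nsmul_eq_mul, Nat.card_eq_fintype_card]
  rw [Finset.sum_congr rfl hterm, ← Finset.mul_sum, ← Finset.mul_sum] at key
  have hR : ∑ χ' ∈ ℛ, (Cfsg.charDegree (χ' : G → ℂ) : ℝ)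
      = (ℛ.card : ℝ) * (Cfsg.charDegree (η : G → ℂ) : ℝ) := by
    have hsub : ∀ χ' ∈ ℛ, χ' ∈ 𝒪 := by
      intro χ' hχ'
      rw [hℛ] at hχ'
      exact (Finset.mem_filter.mp hχ').1
    rw [Finset.sum_congr rfl (fun χ' hχ' => by rw [hdeg χ' (hsub χ' hχ')]), Finset.sum_const,
      nsmul_eq_mul]
  rw [hR, norm_mul, norm_mul, Complex.norm_natCast, Complex.norm_natCast] at key
  have hpos2 : (0 : ℝ) < (Nat.card K : ℝ) := by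
    exact_mod_cast Nat.card_pos
  have hpos3 : (0 : ℝ) < (Cfsg.charDegree (η : G → ℂ) : ℝ) := by
    exact_mod_cast Helper81.charDegree_pos η
  have hSig : ‖∑ χ' ∈ 𝒪, (χ' : G → ℂ) x‖ ≤ (ℛ.card : ℝ) := by
    by_contra hcon
    push Not at hcon
    have h4 : (0 : ℝ) < (Nat.card K : ℝ) * (Cfsg.charDegree (η : G → ℂ) : ℝ) :=
      mul_pos hpos2 hpos3
    nlinarith
  -- fibres of the evaluation at `x`
  obtain ⟨f, hf⟩ : ∃ f : Cfsg.IrrCharacter G → ℂ,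
      f = fun χ' : Cfsg.IrrCharacter G => (χ' : G → ℂ) x := ⟨_, rfl⟩
  have hfa : ∀ χ' : Cfsg.IrrCharacter G, f χ' = (χ' : G → ℂ) x := fun χ' => by rw [hf]
  have hfib : ∀ v ∈ 𝒪.image f, (𝒪.filter (fun χ' => f χ' = v)).card = ℛ.card := by
    intro v hv
    obtain ⟨χ₁, hχ₁, rfl⟩ := Finset.mem_image.mp hv
    obtain ⟨σ, rfl⟩ := (h𝒪 χ₁).mp hχ₁
    rw [hℛ]
    symm
    apply Finset.card_nbij' (galIrr σ) (galIrr σ.symm)
    · intro χ' hχ'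
      rw [Finset.mem_coe, Finset.mem_filter] at hχ' ⊢
      refine ⟨hgal𝒪 σ χ' hχ'.1, ?_⟩
      rw [hfa, hfa, galIrr_apply, galIrr_apply, hχ'.2]
    · intro χ' hχ'
      rw [Finset.mem_coe, Finset.mem_filter] at hχ' ⊢
      refine ⟨hgal𝒪 σ.symm χ' hχ'.1, ?_⟩
      have h2 := hχ'.2
      rw [hfa, hfa] at h2
      rw [galIrr_apply, h2, galIrr_apply, RingEquiv.symm_apply_apply]
    · intro χ' _
      exact galIrr_symm_galIrr σ χ'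
    · intro χ' _
      exact galIrr_galIrr_symm σ χ'
  have hsumfib : ∑ χ' ∈ 𝒪, (χ' : G → ℂ) x = (ℛ.card : ℂ) * ∑ v ∈ 𝒪.image f, v := by
    have h1 := Finset.sum_fiberwise_of_maps_to (s := 𝒪) (t := 𝒪.image f) (g := f)
      (fun χ' hχ' => Finset.mem_image_of_mem f hχ') f
    have h2 : ∑ χ' ∈ 𝒪, f χ' = ∑ χ' ∈ 𝒪, (χ' : G → ℂ) x :=
      Finset.sum_congr rfl fun χ' _ => hfa χ'
    rw [← h2, ← h1, Finset.mul_sum]
    refine Finset.sum_congr rfl fun v hv => ?_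
    rw [Finset.sum_congr rfl (fun χ' hχ' => (Finset.mem_filter.mp hχ').2), Finset.sum_const,
      hfib v hv, nsmul_eq_mul]
  -- the values are those of the exceptional characters
  have hV : 𝒪.image f = Yf.image f := by
    ext v
    rw [Finset.mem_image, Finset.mem_image]
    constructor
    · rintro ⟨χ₁, hχ₁, rfl⟩
      obtain ⟨σ, rfl⟩ := (h𝒪 χ₁).mp hχ₁
      refine ⟨ζ (galHom σ ψ₀), (hYf _).mpr ⟨galHom σ ψ₀, galHom_ne_one σ ψ₀ hψ₀, rfl⟩, ?_⟩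
      rw [hfa, hfa, h𝒪x σ]
    · rintro ⟨θ, hθ, rfl⟩
      obtain ⟨ψ₂, hψ₂, rfl⟩ := (hYf θ).mp hθ
      obtain ⟨σ, rfl⟩ := s4441_trans P hP ψ₀ ψ₂ hψ₀ hψ₂
      refine ⟨galIrr σ η, hgal𝒪 σ η hη𝒪, ?_⟩
      rw [hfa, hfa, h𝒪x σ]
  have hinj : ∀ θ₁ ∈ Yf, ∀ θ₂ ∈ Yf, f θ₁ = f θ₂ → θ₁ = θ₂ := by
    intro θ₁ h₁ θ₂ h₂ h12
    obtain ⟨ψ₁, hψ₁, rfl⟩ := (hYf θ₁).mp h₁
    obtain ⟨ψ₂, hψ₂, rfl⟩ := (hYf θ₂).mp h₂
    have hS : ∑ᶠ ψ' ∈ hOrb (P : Subgroup G) ψ₁, ((ψ' xb : ℂˣ) : ℂ)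
        = ∑ᶠ ψ' ∈ hOrb (P : Subgroup G) ψ₂, ((ψ' xb : ℂˣ) : ℂ) := by
      rw [hfa, hfa, hvx ψ₁ hψ₁, hvx ψ₂ hψ₂] at h12
      exact mul_left_cancel₀ hδ0 (add_left_cancel h12)
    apply horb ψ₂ ψ₁ hψ₂
    apply s4441_orb_distinct (P : Subgroup G) ψ₁ ψ₂ hcomm
    intro y hy
    obtain ⟨i, hi⟩ := hgen (y : G) y.2
    have hi' : (y : G) = x ^ (i % p) := by rw [hi, pow_eq_pow_mod i hxp]
    have hj0 : i % p ≠ 0 := by
      intro h0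
      rw [h0, pow_zero] at hi'
      exact hy (Subtype.ext hi')
    have hcop : Nat.Coprime (i % p) p :=
      Nat.Coprime.symm ((Nat.Prime.coprime_iff_not_dvd hp).mpr
        (Nat.not_dvd_of_pos_of_lt (Nat.pos_of_ne_zero hj0) (Nat.mod_lt i hp.pos)))
    obtain ⟨σ, hσ⟩ := Helper75.exists_ringEquiv_pow p hp.ne_zero (i % p) hcop
    have hyx : y = xb ^ (i % p) := by
      apply Subtype.ext
      rw [Subgroup.coe_pow, hxbv, hi']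
    have hpow : ∀ ψ' : (P : Subgroup G) →* ℂˣ,
        σ ((ψ' xb : ℂˣ) : ℂ) = ((ψ' y : ℂˣ) : ℂ) := by
      intro ψ'
      rw [hσ _ (hroot ψ'), hyx, map_pow, Units.val_pow_eq_pow_val]
    have e : ∀ ψ : (P : Subgroup G) →* ℂˣ,
        ∑ᶠ ψ' ∈ hOrb (P : Subgroup G) ψ, ((ψ' y : ℂˣ) : ℂ)
          = σ (∑ᶠ ψ' ∈ hOrb (P : Subgroup G) ψ, ((ψ' xb : ℂˣ) : ℂ)) := by
      intro ψ
      rw [map_finsum_hOrb]
      exact finsum_mem_congr rfl (fun ψ' _ => (hpow ψ').symm)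
    rw [e ψ₁, e ψ₂, hS]
  have hfinal : ∑ θ ∈ Yf, (θ : G → ℂ) x = ∑ v ∈ 𝒪.image f, v := by
    rw [hV, Finset.sum_image hinj]
    exact Finset.sum_congr rfl fun θ _ => (hfa θ).symm
  rw [hfinal]
  rw [hsumfib, norm_mul, Complex.norm_natCast] at hSig
  have hℛpos : (0 : ℝ) < (ℛ.card : ℝ) := by
    exact_mod_cast Finset.card_pos.mpr ⟨η, hηℛ⟩
  by_contra hcon
  push Not at hcon
  nlinarith

end Cfsg.Agent.Helper79
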