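-- helper79 library: piece C3 of CALL S4441 (the principal block for a Sylow subgroup of prime
-- order `p`, case `1 < e < p - 1`), from the lattice bound and helper82's `excFinal`.
import Cfsg.Agent.Helper79.S4441W2

set_option autoImplicit false
open Cfsg
open scoped ComplexConjugate

namespace Cfsg.Agent.Helper79

set_option maxHeartbeats 1600000 in
theorem s4441_case_mid {G : Type*} [Group G] [Fintype G] (p : ℕ) [Fact p.Prime] (M : Ideal Cfsg.AlgInt) (hM : Cfsg.IsPModular p M) (hodd : p ≠ 2) (P : Sylow p G) (hP : Nat.card P = p) (e : ℕ) (he : (Subgroup.centralizer ((P : Subgroup G) : Set G)).relIndex (Subgroup.normalizer ((P : Subgroup G) : Set G)) = e) (hLB : Cfsg.Agent.Helper75.LatticeBoundStmt G p) (he1 : e ≠ 1) (hep : e ≠ p - 1) : ∃ X Y : Set (Cfsg.IrrCharacter G), Cfsg.principalBlock M G = X ∪ Y ∧ Disjoint X Y ∧ Nat.card X = e ∧ Nat.card Y = (p - 1) / e ∧ ∃ (εX : Cfsg.IrrCharacter G → ℤ) (ε : ℤ), (∀ χ ∈ X, (εX χ = 1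 ∨ εX χ = -1) ∧ (Cfsg.charDegree (χ : G → ℂ) : ℤ) ≡ εX χ [ZMOD p] ∧ ∀ x : G, x ∈ (P : Subgroup G) → x ≠ 1 → ∀ y : G, y ∈ Subgroup.centralizer ((P : Subgroup G) : Set G) → ¬ p ∣ orderOf y → (χ : G → ℂ) (x * y) = (εX χ : ℂ)) ∧ (ε = 1 ∨ ε = -1) ∧ (∀ θ ∈ Y, (Cfsg.charDegree (θ : G → ℂ) : ℤ) ≡ ε * (e : ℤ) [ZMOD p]) ∧ (∀ θ ∈ Y, ∀ θ' ∈ Y, ∀ g : G, ¬ p ∣ orderOf g → (θ : G → ℂ) g = (θ' : G → ℂ) g) ∧ ∀ θ ∈ Y, ∀ g : G, ¬ p ∣ orderOf g → (ε : ℂ) * (θ : G → ℂ) g = ∑ᶠ χ ∈ X, (εX χ : ℂ) * (χ : G → ℂ) g := by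
  classical
  have hp : p.Prime := Fact.out
  have : Fintype (Cfsg.IrrCharacter G) := Fintype.ofFinite _
  have hP' : Nat.card (P : Subgroup G) = p := hP
  have hcomm := s4441_comm P hP
  have hab : IsMulCommutative (P : Subgroup G) := ⟨⟨fun a b => hcomm a b⟩⟩
  -- `e` divides `p - 1`
  have hediv : e ∣ p - 1 := by
    have hcyc : IsCyclic (P : Subgroup G) := isCyclic_of_prime_card hP'
    have key := Subgroup.card_dvd_of_injective _
      (QuotientGroup.kerLift_injective (P : Subgroup G).normalizerMonoidHom)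
    rw [Subgroup.normalizerMonoidHom_ker, ← Subgroup.index, ← Subgroup.relIndex] at key
    rw [hcyc.card_mulAut, hP', Nat.totient_prime hp, he] at key
    exact key
  obtain ⟨t, ht⟩ := hediv
  have hp2 : 2 ≤ p := hp.two_le
  have ht0 : t ≠ 0 := by
    rintro rfl
    rw [mul_zero] at ht
    omega
  have he0 : e ≠ 0 := by
    rintro rfl
    rw [zero_mul] at ht
    omega
  have ht1 : t ≠ 1 := by
    rintro rfl
    rw [mul_one] at ht
    exact hep ht.symm
  have ht2 : 2 ≤ t := by omega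
  have he2 : 2 ≤ e := by omega
  have hte : (p - 1) / e = t := by
    rw [ht]
    exact Nat.mul_div_cancel_left t (by omega)
  have hpe : p = e * t + 1 := by omega
  have hm2 : e + 1 < Nat.card P := by
    rw [hP, hpe]
    nlinarith
  have hP1 : Nat.card P ≠ 1 := by
    rw [hP]
    exact hp.one_lt.ne'
  have hfrob : ∀ y : G, y ∈ (P : Subgroup G) → y ≠ 1 → Subgroup.centralizer ({y} : Set G)
      ⊓ Subgroup.normalizer ((P : Subgroup G) : Set G)
        = Subgroup.centralizer ((P : Subgroup G) : Set G) := by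
    intro y hy hy1
    obtain ⟨-, hgen⟩ := s4441_gen P hP y hy hy1
    apply le_antisymm
    · intro g hg
      have hgy := Subgroup.mem_centralizer_iff.mp (Subgroup.mem_inf.mp hg).1 y
        (Set.mem_singleton y)
      rw [Subgroup.mem_centralizer_iff]
      intro q hq
      obtain ⟨i, rfl⟩ := hgen q hq
      exact (Commute.pow_left (show Commute y g from hgy) i).eq
    · intro g hg
      rw [Subgroup.mem_inf]
      refine ⟨?_, Subgroup.centralizer_le_normalizer _ hg⟩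
      rw [Subgroup.mem_centralizer_iff]
      intro s hs
      rw [Set.mem_singleton_iff] at hs
      rw [hs]
      exact Subgroup.mem_centralizer_iff.mp hg y hy
  obtain ⟨s, X, Y, -, hB, hdisj, hXcard, hYcard, -, a, d, δ, ζ, hδ, hX, hζY, hYζ, horb, hval,
    hnorm, hagree, hrel⟩ := Helper82.excFinal p M hM P hab hP1 e (by omega) hm2 he hfrob
  have hcoef : (Nat.card P - 1) / e = t := by
    rw [hP]
    exact hte
  rw [hcoef] at hYcard
  obtain ⟨x, hx, hx1⟩ := s4441_exists_ne_one P hP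
  have hreg1 : ¬ p ∣ orderOf (1 : G) := by
    rw [orderOf_one]
    exact hp.one_lt.ne' ∘ Nat.dvd_one.mp
  -- the non-exceptional characters
  have hsecX : ∀ χ ∈ X, ∀ x' : G, x' ∈ (P : Subgroup G) → x' ≠ 1 → ∀ y : G,
      y ∈ Subgroup.centralizer ((P : Subgroup G) : Set G) → ¬ p ∣ orderOf y →
      (χ : G → ℂ) (x' * y) = (a χ : ℂ) := by
    intro χ hχ x' hx' hx'1 y hy hyreg
    obtain ⟨hord', -⟩ := s4441_gen P hP x' hx' hx'1
    exact (hX χ hχ).2 (x' * y) x' ⟨y, rfl, Subgroup.mem_centralizer_iff.mp hy x' hx',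
      ⟨1, by rw [hord', pow_one]⟩, hyreg⟩ hx' hx'1
  have haX : ∀ χ ∈ X, a χ = 1 ∨ a χ = -1 := by
    intro χ hχ
    rcases s4441_W1 P hP hLB χ (a χ) x hx hx1 (hsecX χ hχ x hx hx1) with h | h | h
    · exact absurd h (hX χ hχ).1
    · exact Or.inl h
    · exact Or.inr h
  -- finite versions of `X` and `Y`
  obtain ⟨Xf, hXf⟩ : ∃ Xf : Finset (Cfsg.IrrCharacter G), ∀ χ, χ ∈ Xf ↔ χ ∈ X :=
    ⟨Finset.univ.filter (fun χ => χ ∈ X), fun χ => by simp⟩
  obtain ⟨Yf, hYf⟩ : ∃ Yf : Finset (Cfsg.IrrCharacter G), ∀ χ, χ ∈ Yf ↔ χ ∈ Y :=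
    ⟨Finset.univ.filter (fun χ => χ ∈ Y), fun χ => by simp⟩
  have hXset : X = (Xf : Set (Cfsg.IrrCharacter G)) := by
    ext χ
    rw [Finset.mem_coe, hXf]
  have hYset : Y = (Yf : Set (Cfsg.IrrCharacter G)) := by
    ext χ
    rw [Finset.mem_coe, hYf]
  have hdisjf : Disjoint Xf Yf := by
    rw [← Finset.disjoint_coe, ← hXset, ← hYset]
    exact hdisj
  have hYf' : ∀ θ, θ ∈ Yf ↔ ∃ ψ : (P : Subgroup G) →* ℂˣ, ψ ≠ 1 ∧ ζ ψ = θ := by
    intro θ
    rw [hYf]
    constructor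
    · intro h
      exact hYζ θ h
    · rintro ⟨ψ, hψ, rfl⟩
      exact hζY ψ hψ
  have hW2 := s4441_W2 P hP hLB ζ d δ hδ hval (fun ψ ψ' hψ h => horb ψ ψ' hψ h) Yf hYf' x hx hx1
  have hYfcard : Yf.card = t := by
    have h1 := hYcard
    rw [hYset, Nat.card_coe_set_eq, Set.ncard_coe_finset] at h1
    exact h1
  obtain ⟨η, hη⟩ : ∃ η, η ∈ Yf := Finset.card_pos.mp (by omega)
  have hηY : η ∈ Y := (hYf η).mp hη
  -- the sum of the exceptional characters at `x`
  have hYsum : ∑ θ ∈ Yf, (θ : G → ℂ) x = (t : ℂ) * (d : ℂ) - (δ : ℂ) := by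
    have horth := Helper82.excBlock_sum_preg hM P 1 x hreg1 hx hx1
    rw [hB, hXset, hYset, ← Finset.coe_union, finsum_mem_coe_finset,
      Finset.sum_union hdisjf] at horth
    have hrel1 := hrel η hηY 1 hreg1
    rw [hcoef, hXset, finsum_mem_coe_finset] at hrel1
    have hsumX : ∑ χ ∈ Xf, (χ : G → ℂ) 1 * conj ((χ : G → ℂ) x)
        = ∑ χ ∈ Xf, (a χ : ℂ) * (χ : G → ℂ) 1 := by
      refine Finset.sum_congr rfl fun χ hχ => ?_
      have h1 := hsecX χ ((hXf χ).mp hχ) x hx hx1 1 (Subgroup.one_mem _) hreg1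
      rw [mul_one] at h1
      rw [h1, map_intCast, mul_comm]
    have hsumY : ∑ θ ∈ Yf, (θ : G → ℂ) 1 * conj ((θ : G → ℂ) x)
        = (η : G → ℂ) 1 * conj (∑ θ ∈ Yf, (θ : G → ℂ) x) := by
      rw [map_sum, Finset.mul_sum]
      refine Finset.sum_congr rfl fun θ hθ => ?_
      rw [hagree θ ((hYf θ).mp hθ) η hηY 1 hreg1]
    rw [hsumX, hsumY] at horth
    have hη1 : (η : G → ℂ) 1 ≠ 0 := Helper81.irr_one_ne_zero η
    have h1 : (η : G → ℂ) 1 * conj (∑ θ ∈ Yf, (θ : G → ℂ) x)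
        = (η : G → ℂ) 1 * ((t : ℂ) * (d : ℂ) - (δ : ℂ)) := by
      linear_combination horth - hrel1
    have h2 := mul_left_cancel₀ hη1 h1
    have h3 := congrArg conj h2
    rw [Complex.conj_conj] at h3
    rw [h3, map_sub, map_mul, map_natCast, map_intCast, map_intCast]
  rw [hYsum] at hW2
  have hint : ((t : ℂ) * (d : ℂ) - (δ : ℂ)) = (((t : ℤ) * d - δ : ℤ) : ℂ) := by
    push_cast
    ring
  rw [hint, Complex.norm_intCast] at hW2
  have h5 := abs_le.mp hW2
  have h6 : (-1 : ℤ) ≤ (t : ℤ) * d - δ := by exact_mod_cast h5.1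
  have h7 : (t : ℤ) * d - δ ≤ 1 := by exact_mod_cast h5.2
  have ht2' : (2 : ℤ) ≤ (t : ℤ) := by exact_mod_cast ht2
  have hdich : d = 0 ∨ ((t : ℤ) = 2 ∧ d = δ) := by
    rcases hδ with h | h
    · rw [h] at h6 h7
      rcases lt_trichotomy d 0 with hd | hd | hd
      · exfalso
        nlinarith
      · exact Or.inl hd
      · right
        have hd1 : d = 1 := by nlinarith
        rw [hd1] at h7
        rw [hd1, h]
        exact ⟨by linarith, rfl⟩
    · rw [h] at h6 h7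
      rcases lt_trichotomy d 0 with hd | hd | hd
      · right
        have hd1 : d = -1 := by nlinarith
        rw [hd1] at h6
        rw [hd1, h]
        exact ⟨by linarith, rfl⟩
      · exact Or.inl hd
      · exfalso
        nlinarith
  obtain ⟨ε, hεdef⟩ : ∃ ε : ℤ, ε = δ - (t : ℤ) * d := ⟨_, rfl⟩
  have hε : ε = 1 ∨ ε = -1 := by
    rcases hdich with h | ⟨h1, h2⟩
    · rw [hεdef, h, mul_zero, sub_zero]
      exact hδ
    · rw [hεdef, h1, h2]
      rcases hδ with h | h <;> rw [h] <;> norm_num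
  have hεsq : ε * ε = 1 := by
    rcases hε with h | h <;> rw [h] <;> norm_num
  have hnorm1 : (d - δ) ^ 2 + ((t : ℤ) - 1) * d ^ 2 = 1 := by
    rcases hdich with h | ⟨h1, h2⟩
    · rw [h]
      rcases hδ with h | h <;> rw [h] <;> norm_num
    · rw [h1, h2]
      rcases hδ with h | h <;> rw [h] <;> norm_num
  have hεc : (ε : ℂ) = (δ : ℂ) - (t : ℂ) * (d : ℂ) := by
    rw [hεdef]
    push_cast
    ring
  -- the number of non-exceptional characters
  have haXsq : ∀ χ ∈ Xf, a χ ^ 2 = 1 := by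
    intro χ hχ
    rcases haX χ ((hXf χ).mp hχ) with h | h <;> rw [h] <;> norm_num
  have hXfcard : Xf.card = e := by
    have hq : ((Nat.card P : ℤ) - 1) / (e : ℤ) = (t : ℤ) := by
      have h1 : ((Nat.card P : ℤ) - 1) = (e : ℤ) * (t : ℤ) := by
        rw [hP, hpe]
        push_cast
        ring
      rw [h1]
      exact Int.mul_ediv_cancel_left _ (by exact_mod_cast he0)
    rw [hq, hXset, finsum_mem_coe_finset, Finset.sum_congr rfl haXsq, Finset.sum_const,
      nsmul_eq_mul, mul_one] at hnorm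
    have h2 : (Xf.card : ℤ) = (e : ℤ) := by linarith
    exact_mod_cast h2
  have hXcard' : Nat.card X = e := by
    rw [hXset, Nat.card_coe_set_eq, Set.ncard_coe_finset]
    exact hXfcard
  -- degrees of the non-exceptional characters
  have hdegX : ∀ χ ∈ X, (p : ℤ) ∣ (Cfsg.charDegree (χ : G → ℂ) : ℤ) - a χ := by
    intro χ hχ
    have : Fintype (P : Subgroup G) := Fintype.ofFinite _
    obtain ⟨n, hn⟩ := Helper81.exists_linMult χ (P : Subgroup G).subtype
      (1 : (P : Subgroup G) →* ℂˣ)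
    have h1 : ∑ q : (P : Subgroup G), (χ : G → ℂ) ((P : Subgroup G).subtype q)
          * conj (((1 : (P : Subgroup G) →* ℂˣ) q : ℂˣ) : ℂ)
        = (Cfsg.charDegree (χ : G → ℂ) : ℂ) + ((p : ℂ) - 1) * (a χ : ℂ) := by
      rw [← Finset.add_sum_erase Finset.univ _ (Finset.mem_univ (1 : (P : Subgroup G)))]
      congr 1
      · simp [Helper81.irr_one_eq_charDegree]
      · have h2 : ∀ q ∈ Finset.univ.erase (1 : (P : Subgroup G)),
            (χ : G → ℂ) ((P : Subgroup G).subtype q)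
              * conj (((1 : (P : Subgroup G) →* ℂˣ) q : ℂˣ) : ℂ) = (a χ : ℂ) := by
          intro q hq
          have hq1 : (q : G) ≠ 1 := by
            intro h
            exact (Finset.mem_erase.mp hq).1 (Subtype.ext h)
          have h3 := hsecX χ hχ (q : G) q.2 hq1 1 (Subgroup.one_mem _) hreg1
          rw [mul_one] at h3
          simp [h3]
        rw [Finset.sum_congr rfl h2, Finset.sum_const,
          Finset.card_erase_of_mem (Finset.mem_univ _), Finset.card_univ,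
          ← Nat.card_eq_fintype_card, hP', nsmul_eq_mul, Nat.cast_sub hp.one_lt.le, Nat.cast_one]
    rw [h1, ← Nat.card_eq_fintype_card, hP'] at hn
    have h2 : (Cfsg.charDegree (χ : G → ℂ) : ℤ) - a χ = (p : ℤ) * ((n : ℤ) - a χ) := by
      have h3 : (((Cfsg.charDegree (χ : G → ℂ) : ℤ) - a χ : ℤ) : ℂ)
          = (((p : ℤ) * ((n : ℤ) - a χ) : ℤ) : ℂ) := by
        push_cast
        linear_combination hn
      exact_mod_cast h3
    exact ⟨_, h2⟩
  refine ⟨X, Y, hB, hdisj, hXcard', by rw [hYcard, hte], a, ε, ?_, hε, ?_, hagree, ?_⟩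
  · intro χ hχ
    exact ⟨haX χ hχ, (Int.modEq_iff_dvd.mpr (hdegX χ hχ)).symm, hsecX χ hχ⟩
  · -- degrees of the exceptional characters
    intro θ hθ
    have hrel1 := hrel θ hθ 1 hreg1
    rw [hcoef, hXset, finsum_mem_coe_finset] at hrel1
    have h1 : ∑ χ ∈ Xf, (a χ * (Cfsg.charDegree (χ : G → ℂ) : ℤ) - 1)
        = ε * (Cfsg.charDegree (θ : G → ℂ) : ℤ) - (e : ℤ) := by
      rw [Finset.sum_sub_distrib, Finset.sum_const, nsmul_eq_mul, mul_one, hXfcard]
      congr 1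
      have h2 : ((∑ χ ∈ Xf, a χ * (Cfsg.charDegree (χ : G → ℂ) : ℤ) : ℤ) : ℂ)
          = ((ε * (Cfsg.charDegree (θ : G → ℂ) : ℤ) : ℤ) : ℂ) := by
        push_cast
        rw [hεc]
        have h3 : ∑ χ ∈ Xf, (a χ : ℂ) * (Cfsg.charDegree (χ : G → ℂ) : ℂ)
            = ∑ χ ∈ Xf, (a χ : ℂ) * (χ : G → ℂ) 1 :=
          Finset.sum_congr rfl fun χ _ => by rw [Helper81.irr_one_eq_charDegree]
        rw [h3]
        rw [Helper81.irr_one_eq_charDegree] at hrel1
        linear_combination hrel1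
      exact_mod_cast h2
    have h4 : (p : ℤ) ∣ ∑ χ ∈ Xf, (a χ * (Cfsg.charDegree (χ : G → ℂ) : ℤ) - 1) := by
      apply Finset.dvd_sum
      intro χ hχ
      have h5 := hdegX χ ((hXf χ).mp hχ)
      have h6 : a χ * (Cfsg.charDegree (χ : G → ℂ) : ℤ) - 1
          = a χ * ((Cfsg.charDegree (χ : G → ℂ) : ℤ) - a χ) := by
        linear_combination haXsq χ hχ
      rw [h6]
      exact Dvd.dvd.mul_left h5 _
    rw [h1] at h4
    have h7 : (p : ℤ) ∣ (Cfsg.charDegree (θ : G → ℂ) : ℤ) - ε * (e : ℤ) := by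
      have h8 : (Cfsg.charDegree (θ : G → ℂ) : ℤ) - ε * (e : ℤ)
          = ε * (ε * (Cfsg.charDegree (θ : G → ℂ) : ℤ) - (e : ℤ)) := by
        linear_combination (-(Cfsg.charDegree (θ : G → ℂ) : ℤ)) * hεsq
      rw [h8]
      exact Dvd.dvd.mul_left h4 _
    exact (Int.modEq_iff_dvd.mpr h7).symm
  · intro θ hθ g hg
    have h1 := hrel θ hθ g hg
    rw [hcoef] at h1
    rw [hεc]
    linear_combination (-1 : ℂ) * h1

end Cfsg.Agent.Helper79
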