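/-
helper79: piece C3 of helper8's CALL S0980 (values and degrees in the Brauer–Suzuki–Wall argument
for a self-centralizing Sylow 5-subgroup with dihedral normalizer); adapted from helper19's
`bsw7_degree` (Cfsg/Agent/Helper19/Ord4032G3.lean).
-/
import Mathlib
import Cfsg.Prelude.Def_Characters
import Cfsg.Prelude.Def_Blocks
import Cfsg.Agent.Helper8.Ord4032Char
import Cfsg.Agent.Helper82.InvCount

set_option autoImplicit false

namespace Cfsg.Agent.Helper79

universe u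

open Cfsg
open scoped ComplexConjugate

/-- A nontrivial linear character of a cyclic group of order 5 does not take the value 1 off the
identity, and its values are fifth roots of unity. -/
theorem bsw5_root {G : Type u} [Group G] (x : G) (hx : orderOf x = 5)
    (lam : ↥(Subgroup.zpowers x) →* ℂˣ) (hlam : lam ≠ 1) (y : ↥(Subgroup.zpowers x)) :
    ((lam y : ℂˣ) : ℂ) ^ 5 = 1 ∧ (y ≠ 1 → ((lam y : ℂˣ) : ℂ) ≠ 1) := by
  have hcardP : Nat.card ↥(Subgroup.zpowers x) = 5 := by rw [Nat.card_zpowers, hx]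
  have : Fact (Nat.Prime 5) := ⟨by norm_num⟩
  have hpow5 : y ^ 5 = 1 := by
    have := pow_card_eq_one' (G := ↥(Subgroup.zpowers x)) (x := y)
    rwa [hcardP] at this
  refine ⟨?_, ?_⟩
  · rw [← Units.val_pow_eq_pow_val, ← map_pow, hpow5, map_one]
    rfl
  · intro hy h1
    have h3 : lam y = 1 := Units.ext h1
    apply hlam
    ext z
    have hz : z ∈ Subgroup.zpowers y := by
      rw [zpowers_eq_top_of_prime_card hcardP hy]
      exact Subgroup.mem_top z
    obtain ⟨j, rfl⟩ := Subgroup.mem_zpowers_iff.mp hz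
    rw [map_zpow, h3]
    simp

theorem bsw5_eta_sum {G : Type u} [Group G] (x : G) (hx : orderOf x = 5)
    (lam : ↥(Subgroup.zpowers x) →* ℂˣ) (hlam : lam ≠ 1) (y : ↥(Subgroup.zpowers x)) (hy : y ≠ 1) :
    (((lam ^ 1) y : ℂˣ) : ℂ) + (((lam ^ 4) y : ℂˣ) : ℂ) + ((((lam ^ 2) y : ℂˣ) : ℂ)
      + (((lam ^ 3) y : ℂˣ) : ℂ)) = -1 := by
  obtain ⟨h5, hne⟩ := bsw5_root x hx lam hlam y
  have hne' := hne hy
  simp only [MonoidHom.pow_apply, Units.val_pow_eq_pow_val]
  have h0 : ∑ k ∈ Finset.range 5, ((lam y : ℂˣ) : ℂ) ^ k = 0 := by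
    rw [geom_sum_eq hne', h5]
    simp
  simp only [Finset.sum_range_succ, Finset.sum_range_zero] at h0
  linear_combination h0

theorem bsw5_values {G : Type u} [Group G] [Fintype G] (x t : G) (hx : orderOf x = 5)
    (ht : t * x * t⁻¹ = x⁻¹) (lam : ↥(Subgroup.zpowers x) →* ℂˣ) (hlam : lam ≠ 1)
    (ψ : G → ℂ) (hψ : IsCharacter G ψ) (c₁ c₂ : ℤ)
    (h1 : classInner (indFun (Subgroup.zpowers x) (fun h => 1 - (((lam ^ 1) h : ℂˣ) : ℂ))) ψ
      = (c₁ : ℂ))
    (h2 : classInner (indFun (Subgroup.zpowers x) (fun h => 1 - (((lam ^ 2) h : ℂˣ) : ℂ))) ψ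
      = (c₂ : ℂ)) :
    (∃ m : ℕ, c₁ ≤ (m : ℤ) ∧ c₂ ≤ (m : ℤ) ∧ (charDegree ψ : ℤ) = 5 * m - 2 * c₁ - 2 * c₂) ∧
    ∀ y : ↥(Subgroup.zpowers x), y ≠ 1 →
      ψ (y : G) = -(c₁ : ℂ) * ((((lam ^ 1) y : ℂˣ) : ℂ) + (((lam ^ 4) y : ℂˣ) : ℂ))
        - (c₂ : ℂ) * ((((lam ^ 2) y : ℂˣ) : ℂ) + (((lam ^ 3) y : ℂˣ) : ℂ)) := by
  classical
  have : Fintype ↥(Subgroup.zpowers x) := Fintype.ofFinite _
  have hcardP : Nat.card ↥(Subgroup.zpowers x) = 5 := by rw [Nat.card_zpowers, hx]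
  have : Fact (Nat.Prime 5) := ⟨by norm_num⟩
  have hψPc : IsCharacter ↥(Subgroup.zpowers x) (fun y : ↥(Subgroup.zpowers x) => ψ y) :=
    Cfsg.Agent.Helper79.isCharacter_restrict hψ (Subgroup.zpowers x)
  have hnat : ∀ k : ℕ, ∃ n : ℕ,
      classInner (fun y : ↥(Subgroup.zpowers x) => (((lam ^ k) y : ℂˣ) : ℂ))
        (fun y : ↥(Subgroup.zpowers x) => ψ y) = (n : ℂ) := by
    intro k
    exact Cfsg.Agent.Helper3.classInner_isCharacter_nat
      (Cfsg.Agent.Helper79.isCharacter_of_irr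
        (Cfsg.Agent.Helper79.isIrrCharacter_of_hom (lam ^ k))) hψPc
  choose n hn using hnat
  -- Frobenius reciprocity
  have hfrob : ∀ (i : ℕ) (c : ℤ),
      classInner (indFun (Subgroup.zpowers x) (fun h => 1 - (((lam ^ i) h : ℂˣ) : ℂ))) ψ = (c : ℂ) →
      (n 0 : ℤ) - (n i : ℤ) = c := by
    intro i c h1
    rw [Cfsg.Agent.Helper3.frobenius_reciprocity (Subgroup.zpowers x) _ ψ
      (Cfsg.Agent.Helper79.isCharacter_isClassFunction hψ)] at h1
    have e : (fun y : ↥(Subgroup.zpowers x) => 1 - (((lam ^ i) y : ℂˣ) : ℂ))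
        = (fun y : ↥(Subgroup.zpowers x) => (((lam ^ 0) y : ℂˣ) : ℂ))
          - (fun y : ↥(Subgroup.zpowers x) => (((lam ^ i) y : ℂˣ) : ℂ)) := by
      funext y; simp
    rw [e, Cfsg.Agent.Helper3.classInner_sub_left, hn, hn] at h1
    exact_mod_cast h1
  have hpow5 : ∀ y : ↥(Subgroup.zpowers x), y ^ 5 = 1 := by
    intro y
    have := pow_card_eq_one' (G := ↥(Subgroup.zpowers x)) (x := y)
    rwa [hcardP] at this
  have hinvψ : ∀ y : ↥(Subgroup.zpowers x), ψ ((y⁻¹ : ↥(Subgroup.zpowers x)) : G) = ψ (y : G) := by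
    intro y
    obtain ⟨k, hk⟩ := Subgroup.mem_zpowers_iff.mp y.2
    have e : ((y⁻¹ : ↥(Subgroup.zpowers x)) : G) = t * (y : G) * t⁻¹ := by
      rw [Subgroup.coe_inv, ← hk, ← conj_zpow, ht, inv_zpow]
    rw [e]
    exact Cfsg.Agent.Helper79.isCharacter_conj_eq hψ _ _
  have hsym : ∀ k, k ≤ 5 → n (5 - k) = n k := by
    intro k hk
    have h2 : classInner (fun y : ↥(Subgroup.zpowers x) => (((lam ^ (5 - k)) y : ℂˣ) : ℂ))
        (fun y : ↥(Subgroup.zpowers x) => ψ y)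
        = classInner (fun y : ↥(Subgroup.zpowers x) => (((lam ^ k) y : ℂˣ) : ℂ))
        (fun y : ↥(Subgroup.zpowers x) => ψ y) := by
      simp only [classInner]
      congr 1
      rw [← Equiv.sum_comp (Equiv.inv ↥(Subgroup.zpowers x))]
      apply Finset.sum_congr rfl
      intro y _
      simp only [Equiv.inv_apply]
      rw [hinvψ y]
      congr 2
      simp only [MonoidHom.pow_apply, map_inv]
      have h7 : lam y ^ 5 = 1 := by rw [← map_pow, hpow5, map_one]
      have h3 : lam y ^ (5 - k) * lam y ^ k = 1 := by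
        rw [← pow_add, Nat.sub_add_cancel hk, h7]
      exact inv_eq_of_mul_eq_one_right h3
    rw [hn, hn] at h2
    exact_mod_cast h2
  have hdeg : ψ 1 = (charDegree ψ : ℂ) := Cfsg.Agent.Helper79.isCharacter_one_eq_charDegree hψ
  -- the geometric sum of the values of `lam`
  have hgeom : ∀ w : ↥(Subgroup.zpowers x),
      ∑ k ∈ Finset.range 5, ((lam w : ℂˣ) : ℂ) ^ k = if w = 1 then 5 else 0 := by
    intro w
    obtain ⟨h5, hne⟩ := bsw5_root x hx lam hlam w
    by_cases hw : w = 1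
    · rw [if_pos hw, hw]
      simp
    · rw [if_neg hw, geom_sum_eq (hne hw), h5]
      simp
  -- Fourier inversion on `P`
  have hfour : ∀ y' : ↥(Subgroup.zpowers x),
      ∑ k ∈ Finset.range 5, (n k : ℂ) * ((lam y' : ℂˣ) : ℂ) ^ k = ψ (y' : G) := by
    intro y'
    have h2 : ∀ k, (n k : ℂ) = (Nat.card ↥(Subgroup.zpowers x) : ℂ)⁻¹ *
        ∑ y : ↥(Subgroup.zpowers x), conj ((((lam ^ k) y : ℂˣ) : ℂ)) * ψ (y : G) := by
      intro k
      have h3 := congrArg conj (hn k)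
      rw [Complex.conj_natCast] at h3
      rw [← h3]
      simp only [classInner, map_mul, map_inv₀, Complex.conj_natCast, map_sum, Complex.conj_conj]
    have hconj : ∀ (k : ℕ) (y : ↥(Subgroup.zpowers x)),
        conj ((((lam ^ k) y : ℂˣ) : ℂ)) * ((lam y' : ℂˣ) : ℂ) ^ k
          = ((lam (y⁻¹ * y') : ℂˣ) : ℂ) ^ k := by
      intro k y
      obtain ⟨h5, -⟩ := bsw5_root x hx lam hlam y
      have hinv : conj (((lam y : ℂˣ) : ℂ)) = (((lam y : ℂˣ) : ℂ))⁻¹ := by
        have hnorm : ‖((lam y : ℂˣ) : ℂ)‖ = 1 :=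
          Complex.norm_eq_one_of_pow_eq_one h5 (by norm_num)
        exact (Complex.inv_eq_conj hnorm).symm
      rw [MonoidHom.pow_apply, Units.val_pow_eq_pow_val, map_pow, hinv, map_mul, map_inv,
        Units.val_mul, Units.val_inv_eq_inv_val, mul_pow]
    simp only [h2, Finset.mul_sum, Finset.sum_mul]
    rw [Finset.sum_comm]
    have key : ∀ y : ↥(Subgroup.zpowers x),
        ∑ k ∈ Finset.range 5, (Nat.card ↥(Subgroup.zpowers x) : ℂ)⁻¹ *
          (conj ((((lam ^ k) y : ℂˣ) : ℂ)) * ψ (y : G)) * ((lam y' : ℂˣ) : ℂ) ^ k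
          = if y = y' then ψ (y' : G) else 0 := by
      intro y
      have e1 : ∀ k ∈ Finset.range 5, (Nat.card ↥(Subgroup.zpowers x) : ℂ)⁻¹ *
          (conj ((((lam ^ k) y : ℂˣ) : ℂ)) * ψ (y : G)) * ((lam y' : ℂˣ) : ℂ) ^ k
          = (Nat.card ↥(Subgroup.zpowers x) : ℂ)⁻¹ * ψ (y : G) *
            ((lam (y⁻¹ * y') : ℂˣ) : ℂ) ^ k := by
        intro k _
        rw [← hconj k y]
        ring
      rw [Finset.sum_congr rfl e1, ← Finset.mul_sum, hgeom (y⁻¹ * y'), hcardP]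
      by_cases hy : y = y'
      · rw [if_pos hy, if_pos (by rw [hy, inv_mul_cancel]), hy]
        push_cast
        field_simp
      · rw [if_neg hy, if_neg (fun h => hy (inv_mul_eq_one.mp h)), mul_zero]
    rw [Finset.sum_congr rfl (fun y _ => key y), Finset.sum_ite_eq' Finset.univ y',
      if_pos (Finset.mem_univ _)]
  have e1 := hfrob 1 c₁ h1
  have e2 := hfrob 2 c₂ h2
  have s1 := hsym 1 (by norm_num)
  have s2 := hsym 2 (by norm_num)
  norm_num at s1 s2
  refine ⟨?_, ?_⟩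
  · have hsumN : n 0 + n 1 + n 2 + n 3 + n 4 = charDegree ψ := by
      have h3 := hfour 1
      rw [OneMemClass.coe_one, hdeg] at h3
      have : ((n 0 + n 1 + n 2 + n 3 + n 4 : ℕ) : ℂ) = (charDegree ψ : ℂ) := by
        rw [← h3]
        simp [Finset.sum_range_succ]
      exact_mod_cast this
    exact ⟨n 0, by omega, by omega, by omega⟩
  · intro y hy
    have h3 := hfour y
    have h4 := bsw5_eta_sum x hx lam hlam y hy
    simp only [MonoidHom.pow_apply, Units.val_pow_eq_pow_val] at h4 ⊢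
    simp only [Finset.sum_range_succ, Finset.sum_range_zero] at h3
    rw [← h3]
    have e1' : (n 1 : ℂ) = (n 0 : ℂ) - (c₁ : ℂ) := by
      have : ((n 1 : ℤ) : ℂ) = (((n 0 : ℤ) - c₁ : ℤ) : ℂ) := by
        congr 1
        omega
      push_cast at this
      exact this
    have e2' : (n 2 : ℂ) = (n 0 : ℂ) - (c₂ : ℂ) := by
      have : ((n 2 : ℤ) : ℂ) = (((n 0 : ℤ) - c₂ : ℤ) : ℂ) := by
        congr 1
        omega
      push_cast at this
      exact this
    rw [s1, s2, e1', e2']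
    linear_combination ((n 0 : ℂ)) * h4

end Cfsg.Agent.Helper79
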