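import Cfsg.Agent.Helper79.Abelian
import Mathlib.RingTheory.IntegralDomain
import Mathlib.RingTheory.RootsOfUnity.Complex
import Mathlib.GroupTheory.SpecificGroups.Cyclic

/-!
# Helper79 character library, part 8: faithful characters of prime codegree

* `exists_hom_ker_index_prime`: a finite non-perfect group has a linear character whose kernel
  has prime index.
* `faithful_prime_codegree_structure`: if `χ ∈ Irr(G)` is faithful and `|G| = p χ(1)` then
  `χ(1) < p` and `G` has a normal self-centralizing subgroup of order `p`.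
* `not_perfect_of_faithful_prime_codegree`.
-/

set_option autoImplicit false

namespace Cfsg.Agent.Helper79

universe u

variable {G : Type u} [Group G] [Finite G]

/-- A finite group that is not perfect has a homomorphism to `ℂˣ` with kernel of prime index. -/
theorem exists_hom_ker_index_prime (h : commutator G ≠ ⊤) :
    ∃ (f : G →* ℂˣ) (p : ℕ), p.Prime ∧ f.ker.index = p := by
  classical
  obtain ⟨f, hf⟩ := commutator_ne_top_iff.mp h
  have _fin : Finite f.range := (Set.finite_range f).to_subtype
  have _cyc : IsCyclic f.range := isCyclic_subgroup_units f.range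
  obtain ⟨y, hy⟩ := IsCyclic.exists_generator (α := f.range)
  have hord := orderOf_eq_card_of_forall_mem_zpowers hy
  set m := Nat.card f.range with hm
  obtain ⟨g0, hg0⟩ := y.2
  have hm1 : m ≠ 1 := by
    intro h1
    apply hf
    have hsub : Subsingleton f.range := (Nat.card_eq_one_iff_unique.mp h1).1
    ext g
    have : (⟨f g, ⟨g, rfl⟩⟩ : f.range) = 1 := Subsingleton.elim _ _
    have h2 := congrArg Subtype.val this
    simpa using congrArg Units.val h2
  have hm0 : 0 < m := Nat.card_pos
  set p := m.minFac with hpdef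
  have hp : p.Prime := Nat.minFac_prime hm1
  have hpm : p ∣ m := Nat.minFac_dvd m
  set k := m / p with hk
  have hkp : k * p = m := Nat.div_mul_cancel hpm
  have hk0 : k ≠ 0 := by
    intro h0
    rw [h0, zero_mul] at hkp
    omega
  have hkm : k < m := by
    have := hp.one_lt
    nlinarith
  let f' : G →* ℂˣ := (powMonoidHom k).comp f
  have hf'p : ∀ g, f' g ^ p = 1 := by
    intro g
    show (f g ^ k) ^ p = 1
    rw [← pow_mul, hkp]
    have : (⟨f g, ⟨g, rfl⟩⟩ : f.range) ^ Nat.card f.range = 1 := pow_card_eq_one'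
    exact congrArg Subtype.val this
  have hf'ne : f' g0 ≠ 1 := by
    show f g0 ^ k ≠ 1
    rw [hg0]
    have : y ^ k ≠ 1 := pow_ne_one_of_lt_orderOf hk0 (by rw [hord]; exact hkm)
    intro h1
    apply this
    exact Subtype.ext h1
  refine ⟨f', p, hp, ?_⟩
  rw [Subgroup.index_ker]
  have : NeZero p := ⟨hp.ne_zero⟩
  have hle : f'.range ≤ rootsOfUnity p ℂ := by
    rintro _ ⟨g, rfl⟩
    rw [mem_rootsOfUnity]
    exact hf'p g
  have hdvd := Subgroup.card_dvd_of_le hle
  rw [Complex.card_rootsOfUnity] at hdvd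
  rcases (Nat.dvd_prime hp).mp hdvd with h1 | h1
  · exfalso
    have hsub : Subsingleton f'.range := (Nat.card_eq_one_iff_unique.mp h1).1
    have : (⟨f' g0, ⟨g0, rfl⟩⟩ : f'.range) = 1 := Subsingleton.elim _ _
    exact hf'ne (congrArg Subtype.val this)
  · exact h1

/-- If `χ ∈ Irr(G)` is faithful with `|G| = p χ(1)`, `p` prime, then `χ(1) < p` and `G` has a
normal self-centralizing subgroup of order `p`. -/
theorem faithful_prime_codegree_structure (χ : IrrCharacter G)
    (hfaith : ∀ g : G, (χ : G → ℂ) g = (χ : G → ℂ) 1 → g = 1) (p : ℕ) (hp : p.Prime)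
    (hcod : Nat.card G = p * charDegree (χ : G → ℂ)) :
    charDegree (χ : G → ℂ) < p ∧ ∃ P : Subgroup G, P.Normal ∧ Nat.card P = p ∧
      ∀ c : G, (∀ x ∈ P, c * x = x * c) → c ∈ P := by
  classical
  have : Fintype G := Fintype.ofFinite G
  have : Fintype (IrrCharacter G) := Fintype.ofFinite _
  have _hpf : Fact p.Prime := ⟨hp⟩
  set d := charDegree (χ : G → ℂ) with hd
  have hd0 : 0 < d := Helper80.irr_degree_pos χ
  -- d < p
  have hdp : d < p := by
    by_cases hχ : χ = trivIrr G
    · exfalso
      have hall : ∀ g : G, g = 1 := by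
        intro g
        apply hfaith
        rw [hχ]; rfl
      have hsub : Subsingleton G := ⟨fun a b => by rw [hall a, hall b]⟩
      have h1 : Nat.card G = 1 := Nat.card_eq_one_iff_unique.mpr ⟨hsub, ⟨1⟩⟩
      rw [h1] at hcod
      have := hp.one_lt
      have h2 : p ∣ 1 := ⟨d, hcod⟩
      exact hp.one_lt.ne' (Nat.dvd_one.mp h2)
    · have hsum := Helper80.irr_sum_charDegree_sq (G := G)
      rw [← Finset.add_sum_erase _ _ (Finset.mem_univ (trivIrr G))] at hsum
      have h1 : charDegree (trivIrr G : G → ℂ) = 1 := by simp [charDegree]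
      have h2 : d ^ 2 ≤ ∑ ψ ∈ Finset.univ.erase (trivIrr G), charDegree (ψ : G → ℂ) ^ 2 :=
        Finset.single_le_sum (f := fun ψ : IrrCharacter G => charDegree (ψ : G → ℂ) ^ 2)
          (fun _ _ => Nat.zero_le _) (Finset.mem_erase.mpr ⟨hχ, Finset.mem_univ χ⟩)
      rw [h1, ← Nat.card_eq_fintype_card, hcod] at hsum
      by_contra hcon
      push Not at hcon
      nlinarith
  refine ⟨hdp, ?_⟩
  have hpd : ¬ p ∣ d := fun h => absurd (Nat.le_of_dvd hd0 h) (not_le.mpr hdp)
  -- Sylow p-subgroup of order p
  let P : Sylow p G := default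
  have hPcard : Nat.card P = p := by
    rw [Sylow.card_eq_multiplicity, hcod, Nat.factorization_mul hp.ne_zero hd0.ne']
    simp [hp.factorization_self, Nat.factorization_eq_zero_of_not_dvd hpd]
  have hPidx : (P : Subgroup G).index = d := by
    have := (P : Subgroup G).card_mul_index
    rw [hPcard, hcod] at this
    exact Nat.eq_of_mul_eq_mul_left hp.pos this
  have hcardS : Nat.card (Sylow p G) = 1 := by
    have h1 := Sylow.card_dvd_index P
    rw [hPidx] at h1
    have h2 : Nat.card (Sylow p G) ≤ d := Nat.le_of_dvd hd0 h1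
    have h3 := card_sylow_modEq_one p G
    have h4 : Nat.card (Sylow p G) % p = 1 % p := h3
    rw [Nat.mod_eq_of_lt (lt_of_le_of_lt h2 hdp), Nat.mod_eq_of_lt hp.one_lt] at h4
    exact h4
  have _hsub : Subsingleton (Sylow p G) := (Nat.card_eq_one_iff_unique.mp hcardS).1
  have hPn : (P : Subgroup G).Normal := Sylow.normal_of_subsingleton P
  refine ⟨(P : Subgroup G), hPn, hPcard, ?_⟩
  intro c hc
  have _cyc : IsCyclic (P : Subgroup G) := isCyclic_of_prime_card hPcard
  have hPcomm : ∀ x ∈ (P : Subgroup G), ∀ y ∈ (P : Subgroup G), x * y = y * x := by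
    intro x hx y hy
    have := mul_comm' (⟨x, hx⟩ : (P : Subgroup G)) ⟨y, hy⟩
    exact congrArg Subtype.val this
  let S : Set G := (P : Subgroup G) ∪ {c}
  have hScomm : ∀ x ∈ S, ∀ y ∈ S, x * y = y * x := by
    rintro x (hx | hx) y (hy | hy)
    · exact hPcomm x hx y hy
    · rw [Set.mem_singleton_iff.mp hy]; exact (hc x hx).symm
    · rw [Set.mem_singleton_iff.mp hx]; exact hc y hy
    · rw [Set.mem_singleton_iff.mp hx, Set.mem_singleton_iff.mp hy]
  have _cg : IsMulCommutative (Subgroup.closure S) := Subgroup.isMulCommutative_closure hScomm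
  have hAcomm : ∀ a ∈ Subgroup.closure S, ∀ b ∈ Subgroup.closure S, a * b = b * a := by
    intro a ha b hb
    have := mul_comm' (⟨a, ha⟩ : Subgroup.closure S) ⟨b, hb⟩
    exact congrArg Subtype.val this
  have hle : (P : Subgroup G) ≤ Subgroup.closure S := fun x hx =>
    Subgroup.subset_closure (Or.inl hx)
  have hbound := irr_card_abelian_mul_degree_le χ (Subgroup.closure S) hAcomm
  rw [hcod] at hbound
  have hcardA : Nat.card (Subgroup.closure S) ≤ Nat.card (P : Subgroup G) := by
    rw [hPcard]
    exact Nat.le_of_mul_le_mul_right hbound hd0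
  have heq := Subgroup.eq_of_le_of_card_ge hle hcardA
  rw [heq]
  exact Subgroup.subset_closure (Or.inr rfl)

/-- A finite group with a faithful irreducible character `χ` such that `|G| = p χ(1)` for a
prime `p` is not perfect. -/
theorem not_perfect_of_faithful_prime_codegree (χ : IrrCharacter G)
    (hfaith : ∀ g : G, (χ : G → ℂ) g = (χ : G → ℂ) 1 → g = 1) (p : ℕ) (hp : p.Prime)
    (hcod : Nat.card G = p * charDegree (χ : G → ℂ)) : commutator G ≠ ⊤ := by
  classical
  obtain ⟨hdp, P, hPn, hPcard, hPc⟩ := faithful_prime_codegree_structure χ hfaith p hp hcod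
  have _hpf : Fact p.Prime := ⟨hp⟩
  have _cyc : IsCyclic P := isCyclic_of_prime_card hPcard
  intro hperf
  let ψ : G →* (ZMod (Nat.card P))ˣ :=
    (IsCyclic.mulAutMulEquiv P).toMonoidHom.comp MulAut.conjNormal
  have hker : commutator G ≤ ψ.ker := Abelianization.commutator_subset_ker ψ
  rw [hperf] at hker
  have hall : ∀ c : G, c ∈ P := by
    intro c
    apply hPc
    intro x hx
    have h1 : ψ c = 1 := hker (Subgroup.mem_top c)
    have h2 : (MulAut.conjNormal c : MulAut P) = 1 := by
      have : (IsCyclic.mulAutMulEquiv P) (MulAut.conjNormal c) = 1 := h1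
      exact (MulEquiv.map_eq_one_iff _).mp this
    have h3 : ((MulAut.conjNormal c : MulAut P) ⟨x, hx⟩ : G) = c * x * c⁻¹ :=
      MulAut.conjNormal_apply c ⟨x, hx⟩
    rw [h2] at h3
    have h4 : x = c * x * c⁻¹ := h3
    calc c * x = c * x * c⁻¹ * c := by group
      _ = x * c := by rw [← h4]
  have hcomm : ∀ a b : G, a * b = b * a := by
    intro a b
    have := mul_comm' (⟨a, hall a⟩ : P) ⟨b, hall b⟩
    exact congrArg Subtype.val this
  have hcen : Subgroup.center G = ⊤ := by
    rw [eq_top_iff]
    intro g _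
    rw [Subgroup.mem_center_iff]
    intro h
    exact hcomm h g
  have hbot := (commutator_eq_bot_iff_center_eq_top (G := G)).mpr hcen
  rw [hperf] at hbot
  have hsub : Subsingleton G := by
    constructor
    intro a b
    have ha : a ∈ (⊤ : Subgroup G) := Subgroup.mem_top a
    have hb : b ∈ (⊤ : Subgroup G) := Subgroup.mem_top b
    rw [hbot, Subgroup.mem_bot] at ha hb
    rw [ha, hb]
  have h1 : Nat.card G = 1 := Nat.card_eq_one_iff_unique.mpr ⟨hsub, ⟨1⟩⟩
  rw [h1] at hcod
  have h2 : p ∣ 1 := ⟨_, hcod⟩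
  exact hp.one_lt.ne' (Nat.dvd_one.mp h2)

end Cfsg.Agent.Helper79
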