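import Mathlib
import Cfsg.Prelude.Def_Characters
import Cfsg.Prelude.Def_Blocks
import Cfsg.Prelude.Def_Solvable
import Cfsg.Agent.Helper75.Clifford

/-!
# TI Sylow subgroups and faithful characters of small degree (helper79)

* `coprime_conj_aux`, `coset_sum_coprime`: a Glauberman-type counting lemma: for `x` of order prime
  to `|K|` (`K` normal) and `F` constant on `K`-classes,
  `|C_K(x)| * ∑_{k ∈ K} F (x k) = |K| * ∑_{c ∈ C_K(x)} F (x c)`.
* `exists_equiv_sup`: `A × B ≃ A ⊔ B` when `A` normalizes `B` and `A ⊓ B = ⊥`.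
* `tiSylow_commute_normal_coprime`: if a Sylow `p`-subgroup `P` is TI and `G` has a faithful
  character `χ` with `χ(1)^2 ≤ |P|`, then `P` centralizes every normal `p'`-subgroup.
-/

set_option autoImplicit false

namespace Cfsg.Agent.Helper79

open scoped Pointwise
open Representation

section CosetSum

variable {G : Type*} [Group G]

/-- If `x c = t (x c') t⁻¹` with `c, c' ∈ K` commuting with `x` and `orderOf x` prime to `|K|`,
then `t` commutes with `x`. -/
theorem coprime_conj_aux (K : Subgroup G) (x : G) (hcop : (orderOf x).Coprime (Nat.card K))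
    (c c' t : G) (hc : c ∈ K) (hc' : c' ∈ K) (hcx : c * x = x * c) (hc'x : c' * x = x * c')
    (h : x * c = t * (x * c') * t⁻¹) : t * x = x * t := by
  obtain ⟨a, b, hab⟩ : ∃ a b : ℤ, a * (orderOf x : ℤ) + b * (Nat.card K : ℤ) = 1 :=
    Nat.isCoprime_iff_coprime.mpr hcop
  have hpow : ∀ d : G, d ∈ K → d * x = x * d → (x * d) ^ (b * (Nat.card K : ℤ)) = x := by
    intro d hd hdx
    have hcomm : Commute x d := hdx.symm
    rw [hcomm.mul_zpow]
    have h1 : d ^ (b * (Nat.card K : ℤ)) = 1 := by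
      rw [mul_comm, zpow_mul, zpow_natCast]
      have h0 : (⟨d, hd⟩ : K) ^ Nat.card K = 1 := pow_card_eq_one'
      have h2 : d ^ Nat.card K = 1 := by
        have h5 := congrArg (fun y : K => (y : G)) h0
        simp only [Subgroup.coe_pow, Subgroup.coe_one] at h5
        exact h5
      rw [h2, one_zpow]
    have h3 : x ^ (b * (Nat.card K : ℤ)) = x := by
      have h4 : b * (Nat.card K : ℤ) = 1 - (orderOf x : ℤ) * a := by linarith
      rw [h4, zpow_sub, zpow_one, zpow_mul, zpow_natCast, pow_orderOf_eq_one, one_zpow,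
        inv_one, mul_one]
    rw [h1, h3, mul_one]
  have h1 := hpow c hc hcx
  have h2 := hpow c' hc' hc'x
  rw [h, conj_zpow, h2] at h1
  calc t * x = (t * x * t⁻¹) * t := by group
    _ = x * t := by rw [h1]

/-- Glauberman-type coset sum: for `x` of order prime to `|K|`, `K` normal, `C = C_K(x)` and `F`
constant on `K`-classes, `|C| * ∑_{k ∈ K} F (x k) = |K| * ∑_{c ∈ C} F (x c)`. -/
theorem coset_sum_coprime (K C : Subgroup G) [K.Normal] [Fintype K] [Fintype C] (x : G)
    (hcop : (orderOf x).Coprime (Nat.card K)) (hCK : C ≤ K)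
    (hC1 : ∀ c ∈ C, c * x = x * c) (hC2 : ∀ k ∈ K, k * x = x * k → k ∈ C)
    (F : G → ℂ) (hF : ∀ k ∈ K, ∀ g, F (k * g * k⁻¹) = F g) :
    (Nat.card C : ℂ) * ∑ k : K, F (x * k) = (Nat.card K : ℂ) * ∑ c : C, F (x * c) := by
  classical
  have hψmem : ∀ kc : K × C, x⁻¹ * (kc.1 : G) * x * (kc.2 : G) * (kc.1 : G)⁻¹ ∈ K := fun kc =>
    K.mul_mem (K.mul_mem (Subgroup.Normal.conj_mem' inferInstance _ kc.1.2 x) (hCK kc.2.2))
      (K.inv_mem kc.1.2)
  let ψ : K × C → K := fun kc => ⟨x⁻¹ * (kc.1 : G) * x * (kc.2 : G) * (kc.1 : G)⁻¹, hψmem kc⟩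
  have hψ : ∀ kc : K × C, x * (ψ kc : G) = (kc.1 : G) * (x * (kc.2 : G)) * (kc.1 : G)⁻¹ := by
    intro kc
    show x * (x⁻¹ * (kc.1 : G) * x * (kc.2 : G) * (kc.1 : G)⁻¹) = _
    group
  -- first evaluation of the sum over `K × C`
  have hS1 : ∑ kc : K × C, F (x * (ψ kc : G)) = (Nat.card K : ℂ) * ∑ c : C, F (x * c) := by
    have : ∀ kc : K × C, F (x * (ψ kc : G)) = F (x * (kc.2 : G)) := fun kc => by
      rw [hψ kc, hF _ kc.1.2]
    rw [Fintype.sum_congr _ _ this, Fintype.sum_prod_type]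
    simp [Finset.sum_const, Finset.card_univ, Nat.card_eq_fintype_card]
  -- fibres of `ψ`
  have hfib : ∀ kc kc' : K × C, ψ kc = ψ kc' →
      ∃ t : C, kc' = (kc.1 * ⟨t, hCK t.2⟩, ⟨(t : G)⁻¹ * kc.2 * t, C.mul_mem (C.mul_mem (C.inv_mem t.2) kc.2.2) t.2⟩) := by
    rintro ⟨k, c⟩ ⟨k', c'⟩ h
    have h1 : x * (ψ (k, c) : G) = x * (ψ (k', c') : G) := by rw [h]
    rw [hψ, hψ] at h1
    simp only at h1
    have h2 : x * (c : G) = ((k : G)⁻¹ * k') * (x * (c' : G)) * ((k : G)⁻¹ * k')⁻¹ := by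
      calc x * (c : G) = (k : G)⁻¹ * ((k : G) * (x * (c : G)) * (k : G)⁻¹) * k := by group
        _ = (k : G)⁻¹ * ((k' : G) * (x * (c' : G)) * (k' : G)⁻¹) * k := by rw [h1]
        _ = _ := by group
    have htx := coprime_conj_aux K x hcop c c' ((k : G)⁻¹ * k') (hCK c.2) (hCK c'.2)
      (hC1 c c.2) (hC1 c' c'.2) h2
    have htK : (k : G)⁻¹ * k' ∈ K := K.mul_mem (K.inv_mem k.2) k'.2
    have htC : (k : G)⁻¹ * k' ∈ C := hC2 _ htK htx
    refine ⟨⟨(k : G)⁻¹ * k', htC⟩, ?_⟩
    have h3 : (c' : G) = ((k : G)⁻¹ * k')⁻¹ * c * ((k : G)⁻¹ * k') := by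
      have h4 : x * (c : G) = x * (((k : G)⁻¹ * k') * (c' : G) * ((k : G)⁻¹ * k')⁻¹) := by
        rw [h2, ← mul_assoc, ← mul_assoc, ← mul_assoc, htx]
      have h5 := mul_left_cancel h4
      rw [h5]; group
    refine Prod.ext ?_ ?_
    · ext; simp
    · ext; simpa using h3
  have hle : ∀ y : K, (Finset.univ.filter (fun kc : K × C => ψ kc = y)).card ≤ Fintype.card C := by
    intro y
    by_cases hne : (Finset.univ.filter (fun kc : K × C => ψ kc = y)).Nonempty
    · obtain ⟨kc₀, hkc₀⟩ := hne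
      rw [Finset.mem_filter] at hkc₀
      have hsub : Finset.univ.filter (fun kc : K × C => ψ kc = y) ⊆
          (Finset.univ : Finset C).image (fun t : C => ((kc₀.1 * ⟨t, hCK t.2⟩,
            ⟨(t : G)⁻¹ * kc₀.2 * t, C.mul_mem (C.mul_mem (C.inv_mem t.2) kc₀.2.2) t.2⟩) : K × C)) := by
        intro kc hkc
        rw [Finset.mem_filter] at hkc
        obtain ⟨t, ht⟩ := hfib kc₀ kc (hkc₀.2.trans hkc.2.symm)
        exact Finset.mem_image.mpr ⟨t, Finset.mem_univ _, ht.symm⟩
      calc _ ≤ _ := Finset.card_le_card hsub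
        _ ≤ (Finset.univ : Finset C).card := Finset.card_image_le
        _ = Fintype.card C := Finset.card_univ
    · rw [Finset.not_nonempty_iff_eq_empty.mp hne]; simp
  have hsum : ∑ y : K, (Finset.univ.filter (fun kc : K × C => ψ kc = y)).card
      = ∑ _y : K, Fintype.card C := by
    rw [← Finset.card_eq_sum_card_fiberwise (f := ψ) (s := Finset.univ) (t := Finset.univ)
      (fun _ _ => Finset.mem_coe.mpr (Finset.mem_univ _))]
    simp [Finset.card_univ, Fintype.card_prod]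
  have heq : ∀ y : K, (Finset.univ.filter (fun kc : K × C => ψ kc = y)).card = Fintype.card C :=
    fun y => (Finset.sum_eq_sum_iff_of_le (fun y _ => hle y)).mp hsum y (Finset.mem_univ _)
  -- second evaluation
  have hS2 : ∑ kc : K × C, F (x * (ψ kc : G)) = (Nat.card C : ℂ) * ∑ k : K, F (x * k) := by
    rw [← Finset.sum_fiberwise (s := Finset.univ) (g := ψ) (f := fun kc => F (x * (ψ kc : G))),
      Finset.mul_sum]
    refine Finset.sum_congr rfl (fun y _ => ?_)
    rw [Finset.sum_congr rfl (g := fun _ => F (x * (y : G)))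
      (fun kc hkc => by rw [(Finset.mem_filter.mp hkc).2]), Finset.sum_const, heq y,
      Nat.card_eq_fintype_card, nsmul_eq_mul]
  rw [← hS2, hS1]

end CosetSum

section Sup

variable {G : Type*} [Group G]

/-- If `A` normalizes `B` and `A ⊓ B = ⊥`, then `(a, b) ↦ a * b` is a bijection `A × B ≃ A ⊔ B`. -/
theorem exists_equiv_sup (A B : Subgroup G) (hN : A ≤ Subgroup.normalizer (B : Set G))
    (hdisj : A ⊓ B = ⊥) :
    ∃ e : A × B ≃ ↥(A ⊔ B), ∀ ab : A × B, (e ab : G) = (ab.1 : G) * (ab.2 : G) := by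
  refine ⟨Equiv.ofBijective (fun ab => ⟨(ab.1 : G) * (ab.2 : G),
    mul_mem ((le_sup_left : A ≤ A ⊔ B) ab.1.2) ((le_sup_right : B ≤ A ⊔ B) ab.2.2)⟩) ⟨?_, ?_⟩,
    fun _ => rfl⟩
  · rintro ⟨a, b⟩ ⟨a', b'⟩ h
    have h' : (a : G) * b = a' * b' := congrArg Subtype.val h
    have h1 : (a' : G)⁻¹ * a = b' * (b : G)⁻¹ := by
      rw [eq_mul_inv_iff_mul_eq, mul_assoc, h', inv_mul_cancel_left]
    have h2 : (a' : G)⁻¹ * a ∈ A ⊓ B :=
      ⟨A.mul_mem (A.inv_mem a'.2) a.2, by rw [h1]; exact B.mul_mem b'.2 (B.inv_mem b.2)⟩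
    rw [hdisj, Subgroup.mem_bot] at h2
    have ha : (a : G) = a' := (inv_mul_eq_one.mp h2).symm
    have hb : (b : G) = b' := by
      rw [ha] at h'
      exact mul_left_cancel h'
    exact Prod.ext (Subtype.ext ha) (Subtype.ext hb)
  · rintro ⟨g, hg⟩
    have hg' : g ∈ ((A ⊔ B : Subgroup G) : Set G) := hg
    rw [Subgroup.coe_mul_of_left_le_normalizer_right A B hN] at hg'
    obtain ⟨a, ha, b, hb, rfl⟩ := Set.mem_mul.mp hg'
    exact ⟨(⟨a, ha⟩, ⟨b, hb⟩), rfl⟩

end Sup

section Commutant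

variable {G : Type*} [Group G] {V : Type*} [AddCommGroup V] [Module ℂ V]

/-- The restriction of a representation to a subgroup. -/
abbrev resRep (ρ : Representation ℂ G V) (H : Subgroup G) : Representation ℂ H V :=
  MonoidHom.comp ρ H.subtype

/-- The commutant of `ρ(H)` in `End(V)`. -/
noncomputable def commutant (ρ : Representation ℂ G V) (H : Subgroup G) :
    Submodule ℂ (V →ₗ[ℂ] V) :=
  LinearMap.range (IntertwiningMap.toLinearMapl (ρ := resRep ρ H) (σ := resRep ρ H))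

theorem mem_commutant (ρ : Representation ℂ G V) (H : Subgroup G) (f : V →ₗ[ℂ] V) :
    f ∈ commutant ρ H ↔ ∀ h ∈ H, f ∘ₗ ρ h = ρ h ∘ₗ f := by
  constructor
  · rintro ⟨φ, rfl⟩ h hh
    exact φ.isIntertwining' ⟨h, hh⟩
  · intro hf
    exact ⟨⟨f, fun h => hf h h.2⟩, rfl⟩

theorem commutant_anti (ρ : Representation ℂ G V) {H₁ H₂ : Subgroup G} (h : H₁ ≤ H₂) :
    commutant ρ H₂ ≤ commutant ρ H₁ := by
  intro f hf
  rw [mem_commutant] at hf ⊢
  exact fun x hx => hf x (h hx)

theorem finrank_commutant_le [FiniteDimensional ℂ V] (ρ : Representation ℂ G V) (H : Subgroup G) :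
    Module.finrank ℂ (commutant ρ H) ≤ Module.finrank ℂ V ^ 2 := by
  calc Module.finrank ℂ (commutant ρ H) ≤ Module.finrank ℂ (V →ₗ[ℂ] V) := Submodule.finrank_le _
    _ = Module.finrank ℂ V ^ 2 := by rw [Module.finrank_linearMap, sq]

theorem finrank_commutant_pos [FiniteDimensional ℂ V] [Nontrivial V] (ρ : Representation ℂ G V)
    (H : Subgroup G) : 0 < Module.finrank ℂ (commutant ρ H) := by
  rw [Module.finrank_pos_iff_exists_ne_zero]
  refine ⟨⟨LinearMap.id, (mem_commutant ρ H _).mpr (fun h _ => by simp)⟩, ?_⟩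
  intro h
  have h1 : (LinearMap.id : V →ₗ[ℂ] V) = 0 := congrArg Subtype.val h
  obtain ⟨v, hv⟩ := exists_ne (0 : V)
  exact hv (by simpa using congrArg (fun f : V →ₗ[ℂ] V => f v) h1)

theorem finrank_commutant_eq_sum [FiniteDimensional ℂ V] (ρ : Representation ℂ G V)
    (H : Subgroup G) [Fintype H] :
    (Module.finrank ℂ (commutant ρ H) : ℂ) = (Nat.card H : ℂ)⁻¹ *
      ∑ h : H, ρ.character (h : G) * (starRingEnd ℂ) (ρ.character (h : G)) := by
  have h1 := Helper75.classInner_character_eq_finrank (resRep ρ H) (resRep ρ H)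
  have h2 : Module.finrank ℂ (commutant ρ H) =
      Module.finrank ℂ (IntertwiningMap (resRep ρ H) (resRep ρ H)) :=
    LinearMap.finrank_range_of_inj (IntertwiningMap.toLinearMap_injective _ _)
  rw [h2, ← h1]
  rfl

end Commutant

section Main

variable {G : Type*} [Group G] [Finite G]

/-- If a Sylow `p`-subgroup `P` of `G` is a TI-subgroup and `G` has a faithful character `χ`
with `χ(1)^2 ≤ |P|`, then `P` centralizes every normal subgroup of order prime to `p`. -/
theorem tiSylow_commute_normal_coprime (p : ℕ) [Fact p.Prime] (P : Sylow p G)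
    (hTI : ∀ g : G, g ∉ Subgroup.normalizer ((P : Subgroup G) : Set G) →
      (P : Subgroup G) ⊓ (MulAut.conj g • (P : Subgroup G)) = ⊥)
    (χ : G → ℂ) (hχ : Cfsg.IsCharacter G χ) (hfaith : ∀ g : G, χ g = χ 1 → g = 1)
    (hdeg : Cfsg.charDegree χ ^ 2 ≤ Nat.card ↥(P : Subgroup G))
    (K : Subgroup G) [K.Normal] (hK : (Nat.card K).Coprime p) :
    ∀ x ∈ (P : Subgroup G), ∀ k ∈ K, x * k = k * x := by
  classical
  have : Fintype G := Fintype.ofFinite G
  obtain ⟨n, ρ, rfl⟩ := hχ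
  have hfr : Module.finrank ℂ (Fin n → ℂ) = n := by simp
  have hdegn : Cfsg.charDegree ρ.character = n := by
    unfold Cfsg.charDegree
    rw [Representation.char_one, hfr]
    simp
  rw [hdegn] at hdeg
  rcases Nat.eq_zero_or_pos n with hn | hn
  · subst hn
    have hall : ∀ g : G, g = 1 := fun g => hfaith g (by
      unfold Representation.character
      congr 1
      ext v i
      exact Fin.elim0 i)
    intro x _ k _
    rw [hall x, hall k]
  have : Nontrivial (Fin n → ℂ) := by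
    have : Nonempty (Fin n) := ⟨⟨0, hn⟩⟩
    infer_instance
  set Q : Subgroup G := (P : Subgroup G) with hQ
  set C : Subgroup G := K ⊓ Subgroup.centralizer (Q : Set G) with hC
  have hCK : C ≤ K := inf_le_left
  have hCcent : ∀ c ∈ C, ∀ y ∈ Q, y * c = c * y := fun c hc y hy =>
    Subgroup.mem_centralizer_iff.mp hc.2 y hy
  obtain ⟨m, hm⟩ := (IsPGroup.iff_card.mp P.isPGroup' : ∃ m, Nat.card Q = p ^ m)
  have hcopQK : (Nat.card Q).Coprime (Nat.card K) := by
    rw [hm]; exact Nat.Coprime.pow_left m hK.symm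
  have hQK : Q ⊓ K = ⊥ := (Subgroup.disjoint_of_coprime_natCard hcopQK).eq_bot
  have hQC : Q ⊓ C = ⊥ := le_bot_iff.mp (hQK ▸ inf_le_inf_left Q hCK)
  have hord : ∀ x ∈ Q, (orderOf x).Coprime (Nat.card K) := by
    intro x hx
    have h1 : orderOf x ∣ Nat.card Q := by
      have := orderOf_dvd_natCard (⟨x, hx⟩ : Q)
      rwa [Subgroup.orderOf_mk] at this
    exact Nat.Coprime.coprime_dvd_left h1 hcopQK
  -- A1
  have hA1 : ∀ x ∈ Q, x ≠ 1 → ∀ k ∈ K, k * x = x * k → k ∈ C := by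
    intro x hx hx1 k hk hkx
    have hkN : k ∈ Subgroup.normalizer (Q : Set G) := by
      by_contra hnot
      have h0 := hTI k hnot
      have hxmem : x ∈ Q ⊓ (MulAut.conj k • Q) := by
        refine Subgroup.mem_inf.mpr ⟨hx, ?_⟩
        rw [Subgroup.mem_pointwise_smul_iff_inv_smul_mem]
        have h1 : (MulAut.conj k)⁻¹ • x = x := by
          rw [MulAut.smul_def, ← map_inv, MulAut.conj_apply, inv_inv, mul_assoc, ← hkx,
            inv_mul_cancel_left]
        rw [h1]; exact hx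
      rw [h0, Subgroup.mem_bot] at hxmem
      exact hx1 hxmem
    refine Subgroup.mem_inf.mpr ⟨hk, ?_⟩
    rw [Subgroup.mem_centralizer_iff]
    intro y hy
    have h1 : k * y * k⁻¹ * y⁻¹ ∈ Q :=
      Q.mul_mem ((Subgroup.mem_normalizer_iff.mp hkN y).mp hy) (Q.inv_mem hy)
    have h2 : k * y * k⁻¹ * y⁻¹ ∈ K := by
      have h3 : k * y * k⁻¹ * y⁻¹ = k * (y * k⁻¹ * y⁻¹) := by group
      rw [h3]
      exact K.mul_mem hk (Subgroup.Normal.conj_mem inferInstance _ (K.inv_mem hk) y)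
    have h3 : k * y * k⁻¹ * y⁻¹ ∈ Q ⊓ K := ⟨h1, h2⟩
    rw [hQK, Subgroup.mem_bot] at h3
    calc y * k = (k * y * k⁻¹ * y⁻¹)⁻¹ * (k * y) := by group
      _ = k * y := by rw [h3]; simp
  have hNK : Q ≤ Subgroup.normalizer (K : Set G) := by
    rw [Subgroup.normalizer_eq_top]; exact le_top
  have hNC : Q ≤ Subgroup.normalizer (C : Set G) := by
    intro x hx
    rw [Subgroup.mem_normalizer_iff]
    intro c
    constructor
    · intro hc
      have h1 : x * c * x⁻¹ = c := by rw [hCcent c hc x hx]; group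
      rw [h1]; exact hc
    · intro hc
      have h1 := hCcent _ hc x hx
      have h2 : x * (x * c * x⁻¹) = x * c := by rw [h1]; group
      have h3 : c = x * c * x⁻¹ := (mul_left_cancel h2).symm
      rw [h3]; exact hc
  obtain ⟨eK, heK⟩ := exists_equiv_sup Q K hNK hQK
  obtain ⟨eC, heC⟩ := exists_equiv_sup Q C hNC hQC
  set θ : G → ℂ := fun g => ρ.character g * (starRingEnd ℂ) (ρ.character g) with hθdef
  have hθ : ∀ k ∈ K, ∀ g, θ (k * g * k⁻¹) = θ g := fun k _ g => by
    simp only [hθdef, Representation.char_conj]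
  set nK := Module.finrank ℂ (commutant ρ K) with hnK
  set nC := Module.finrank ℂ (commutant ρ C) with hnC
  set nQK := Module.finrank ℂ (commutant ρ (Q ⊔ K)) with hnQK
  set nQC := Module.finrank ℂ (commutant ρ (Q ⊔ C)) with hnQC
  have hK0 : (Nat.card K : ℂ) ≠ 0 := by exact_mod_cast (Nat.card_pos (α := K)).ne'
  have hC0 : (Nat.card C : ℂ) ≠ 0 := by exact_mod_cast (Nat.card_pos (α := C)).ne'
  have hQ0 : (Nat.card Q : ℂ) ≠ 0 := by exact_mod_cast (Nat.card_pos (α := Q)).ne'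
  have sK : ∑ k : K, θ k = (Nat.card K : ℂ) * nK := by
    have h := finrank_commutant_eq_sum ρ K
    change (nK : ℂ) = (Nat.card K : ℂ)⁻¹ * ∑ k : K, θ k at h
    rw [h]; field_simp
  have sC : ∑ c : C, θ c = (Nat.card C : ℂ) * nC := by
    have h := finrank_commutant_eq_sum ρ C
    change (nC : ℂ) = (Nat.card C : ℂ)⁻¹ * ∑ c : C, θ c at h
    rw [h]; field_simp
  have sQK : ∑ x : Q, ∑ k : K, θ (x * k) = (Nat.card Q : ℂ) * (Nat.card K : ℂ) * nQK := by
    have hcard : Nat.card ↥(Q ⊔ K) = Nat.card Q * Nat.card K := by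
      rw [← Nat.card_prod]; exact (Nat.card_congr eK).symm
    have hsum : ∑ g : ↥(Q ⊔ K), θ g = ∑ x : Q, ∑ k : K, θ (x * k) := by
      rw [← Fintype.sum_prod_type (f := fun ab : Q × K => θ (ab.1 * ab.2))]
      exact (Fintype.sum_equiv eK _ _ (fun ab => by rw [heK])).symm
    have h := finrank_commutant_eq_sum ρ (Q ⊔ K)
    change (nQK : ℂ) = (Nat.card ↥(Q ⊔ K) : ℂ)⁻¹ * ∑ g : ↥(Q ⊔ K), θ g at h
    rw [h, hcard, ← hsum]
    push_cast
    field_simp
  have sQC : ∑ x : Q, ∑ c : C, θ (x * c) = (Nat.card Q : ℂ) * (Nat.card C : ℂ) * nQC := by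
    have hcard : Nat.card ↥(Q ⊔ C) = Nat.card Q * Nat.card C := by
      rw [← Nat.card_prod]; exact (Nat.card_congr eC).symm
    have hsum : ∑ g : ↥(Q ⊔ C), θ g = ∑ x : Q, ∑ c : C, θ (x * c) := by
      rw [← Fintype.sum_prod_type (f := fun ab : Q × C => θ (ab.1 * ab.2))]
      exact (Fintype.sum_equiv eC _ _ (fun ab => by rw [heC])).symm
    have h := finrank_commutant_eq_sum ρ (Q ⊔ C)
    change (nQC : ℂ) = (Nat.card ↥(Q ⊔ C) : ℂ)⁻¹ * ∑ g : ↥(Q ⊔ C), θ g at h
    rw [h, hcard, ← hsum]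
    push_cast
    field_simp
  have key : ∀ x : Q, (x : G) ≠ 1 → (Nat.card C : ℂ) * ∑ k : K, θ (x * k) =
      (Nat.card K : ℂ) * ∑ c : C, θ (x * c) := fun x hx =>
    coset_sum_coprime K C x (hord x x.2) hCK (fun c hc => (hCcent c hc x x.2).symm)
      (hA1 x x.2 hx) θ hθ
  have hmain : (Nat.card C : ℂ) * ∑ x : Q, ∑ k : K, θ (x * k) -
      (Nat.card K : ℂ) * ∑ x : Q, ∑ c : C, θ (x * c) =
      (Nat.card C : ℂ) * ∑ k : K, θ k - (Nat.card K : ℂ) * ∑ c : C, θ c := by
    rw [Finset.mul_sum, Finset.mul_sum, ← Finset.sum_sub_distrib]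
    rw [Finset.sum_eq_single (1 : Q)]
    · simp
    · intro x _ hx
      have hx' : (x : G) ≠ 1 := fun h => hx (Subtype.ext h)
      rw [key x hx', sub_self]
    · intro h; exact absurd (Finset.mem_univ _) h
  have hnat : Nat.card Q * nQK + nC = nK + Nat.card Q * nQC := by
    have h1 : ((Nat.card Q * nQK + nC : ℕ) : ℂ) = ((nK + Nat.card Q * nQC : ℕ) : ℂ) := by
      push_cast
      rw [sQK, sQC, sK, sC] at hmain
      have h2 : (Nat.card C : ℂ) * (Nat.card K : ℂ) *
          ((Nat.card Q : ℂ) * nQK + nC - (nK + (Nat.card Q : ℂ) * nQC)) = 0 := by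
        linear_combination hmain
      have h3 := (mul_eq_zero.mp h2).resolve_left (mul_ne_zero hC0 hK0)
      linear_combination h3
    exact_mod_cast h1
  have hb1 : nK ≤ Nat.card Q := (finrank_commutant_le ρ K).trans (by rw [hfr]; exact hdeg)
  have hb2 : nC ≤ Nat.card Q := (finrank_commutant_le ρ C).trans (by rw [hfr]; exact hdeg)
  have hp1 : 0 < nK := finrank_commutant_pos ρ K
  have hp2 : 0 < nC := finrank_commutant_pos ρ C
  have heq : nK = nC := by
    rcases lt_trichotomy nQK nQC with h | h | h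
    · have h1 : Nat.card Q * nQK + Nat.card Q ≤ Nat.card Q * nQC := by nlinarith
      omega
    · rw [h] at hnat; omega
    · have h1 : Nat.card Q * nQC + Nat.card Q ≤ Nat.card Q * nQK := by nlinarith
      omega
  have hcomm : commutant ρ K = commutant ρ C :=
    Submodule.eq_of_le_of_finrank_eq (commutant_anti ρ hCK) heq
  intro x hx k hk
  have h1 : ρ x ∈ commutant ρ C := by
    rw [mem_commutant]; intro c hc
    rw [← Module.End.mul_eq_comp, ← Module.End.mul_eq_comp, ← map_mul, ← map_mul,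
      hCcent c hc x hx]
  rw [← hcomm, mem_commutant] at h1
  have h2 := h1 k hk
  have h3 : ρ (x * k) = ρ (k * x) := by
    rw [map_mul, map_mul]; exact h2
  have h4 : ρ (x * k * (k * x)⁻¹) = 1 := by
    rw [map_mul, h3, ← map_mul, mul_inv_cancel, map_one]
  have h5 : ρ.character (x * k * (k * x)⁻¹) = ρ.character 1 := by
    show LinearMap.trace ℂ _ (ρ (x * k * (k * x)⁻¹)) = LinearMap.trace ℂ _ (ρ 1)
    rw [h4, map_one ρ]
  exact mul_inv_eq_one.mp (hfaith _ h5)

end Main

end Cfsg.Agent.Helper79
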